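import Cfsg.Agent.StdZ.E8F
import Cfsg.Agent.Known.O82Mul
import Cfsg.Agent.Known.Out
import Cfsg.Agent.S2607

/-! The model of `W(E₈)` satisfies `Dat`; a standard copy of `X` has an isolated centre (`isol`) (helper23). -/

set_option autoImplicit false
set_option maxRecDepth 100000

namespace Cfsg.Agent.StdZ.E8

open Subgroup Cfsg.Agent.Comp Cfsg.Agent.Known Cfsg.Agent.Known.O82T Cfsg.Agent.BG
open scoped commutatorElement

theorem sq (k : ℕ) (h : eq3 [k, k] [] = true := by decide +kernel) : d k * d k = 1 := by simpa using E3 h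
theorem cm (k l : ℕ) (h : eq3 [k, l] [l, k] = true := by decide +kernel) : Commute (d k) (d l) := by
  simpa [Commute, SemiconjBy] using E3 h
theorem p5 (k : ℕ) (h : eq3 [k, k, k, k, k] [] = true := by decide +kernel) : d k ^ 5 = 1 := by
  simpa [pow_succ, mul_assoc] using E3 h
theorem g1 (k m : ℕ) (h : fx [k] = m := by decide +kernel) : f (d k) = m := by simpa [h] using fW [k]
theorem g2 (k l m : ℕ) (h : fx [k, l] = m := by decide +kernel) : f (d k * d l) = m := by simpa [h] using fW [k, l]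
theorem g3 (k l o m : ℕ) (h : fx [k, l, o] = m := by decide +kernel) : f (d k * (d l * d o)) = m := by
  simpa [h] using fW [k, l, o]
theorem dr : d 6 = r := (mul_one _).trans (mul_one _)
theorem mn (k l : ℕ) (h : eq3 [k] [l, 1] = true := by decide +kernel) : d k = d l * n := by simpa [dn] using E3 h

theorem d0 : d 0 = 1 := rfl
attribute [local irreducible] d f n

def FV : ℕ → ℕ := nthL 0 [240, 0, 60, 4, 24, 8, 126, 2, 26, 6]
def FN : ℕ → ℕ := nthL 0 [0, 240, 4, 60, 24, 8, 2, 126, 6, 26]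
theorem tab {k : ℕ} (h : k < 10) : (Commute r (d k) ∧ d k * d k = 1) ∧ (f (d k) = FV k ∧ f (d k * n) = FN k) ∧
    (d k ∈ X ↔ k < 6) := by
  have := allLt_iff.1 (show allLt 10 (fun k => band (band (eq3 [6, k] [k, 6]) (eq3 [k, k] [])) (band (band
    (Nat.beq (fx [k]) (FV k)) (Nat.beq (fx [k, 1]) (FN k))) (xor (p3 k) (Nat.blt k 6)))) = true by decide +kernel) k h
  simp only [band_eq, Bool.and_eq_true, nbeq] at this
  refine ⟨⟨dr ▸ cm 6 k this.1.1, sq k this.1.2⟩, ⟨g1 k _ this.2.1.1, dn ▸ g2 k 1 _ this.2.1.2⟩, ?_⟩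
  rw [par3, ← nblt]
  revert this; cases p3 k <;> cases Nat.blt k 6 <;> simp

theorem cn (g a : Wg) : g * (a * n) * g⁻¹ = g * a * g⁻¹ * n := by rw [mul_assoc _ g⁻¹, (nc g⁻¹).eq]; group
theorem v2 : d 10 * d 10 = n := by simpa [dn] using E3 (u := [10, 10]) (v := [1]) (by decide +kernel)
theorem n1' : (n : Wg) ≠ 1 := fun e => n1 (Subtype.ext e)
theorem clsI {a : Wg} (h : a * a = 1) : ∃ k < 10, ∃ g : X, g * a * (g : Wg)⁻¹ = d k ∧ f a = FV k ∧ f (a * n) = FN k := by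
  obtain ⟨k, hk, c⟩ := cls (.inl h)
  obtain ⟨g, e⟩ := isConj_iff.1 c
  have hk : k < 10 := lt_of_le_of_ne (Nat.lt_succ_iff.1 hk) (by
    rintro rfl; exact n1' (by rw [← v2, ← e, conj_mul, h]; simp))
  have t := tab hk
  obtain ⟨g, e⟩ : ∃ g : X, g * a * (g : Wg)⁻¹ = d k := by
    by_cases c : g ∈ X
    · exact ⟨⟨g, c⟩, e⟩
    · refine ⟨⟨r * g, (mul_mem_iff_of_index_two idx).2 (iff_of_false rX' c)⟩, ?_⟩
      rw [← mul_inv_cancel_right (d k) r, ← t.1.1.eq, ← e]; group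
  exact ⟨k, hk, g, e, by rw [← fc g, e, t.2.1.1], by rw [← fc g, cn, e, t.2.1.2]⟩
theorem clsV {a : Wg} (h : a * a = n) : ∃ g, g * a * g⁻¹ = d 10 := by
  obtain ⟨k, hk, c⟩ := cls (.inr h)
  obtain ⟨g, e⟩ := isConj_iff.1 c
  obtain rfl : k = 10 := by_contra fun c => n1' (by
    have := (tab (k := k) (by omega)).1.2
    rwa [← e, conj_mul, h, (nc g).eq, mul_inv_cancel_right] at this)
  exact ⟨g, e⟩

def St (c : X) : Prop := ∃ a b : X, Commute a c ∧ Commute b c ∧ a * a = 1 ∧ b * b = 1 ∧ a * b * (a * b) = n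
theorem stD (a b : ℕ) {k : ℕ} {g : Wg} {c : X} (e : g * c * g⁻¹ = d k) (h : band (band (band (not (p3 a)) (not (p3 b)))
    (band (eq3 [a, k] [k, a]) (eq3 [b, k] [k, b]))) (band (band (eq3 [a, a] []) (eq3 [b, b] [])) (eq3 [a, b, a, b] [1])) = true :=
    by decide +kernel) : St c := by
  simp only [band_eq, Bool.and_eq_true, Bool.not_eq_true'] at h
  let α := MulAut.conjNormal (H := X) g⁻¹
  have m : d k ∈ X := e ▸ nX.conj_mem _ c.2 g
  have hc : α ⟨d k, m⟩ = c := Subtype.ext (by simp [α, ← e, mul_assoc])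
  have hn : α n = n := Subtype.ext (by simp [α, (nc g⁻¹).eq])
  have c1 : Commute (DX a h.1.1.1) ⟨d k, m⟩ := Subtype.ext (cm a k h.1.2.1).eq
  have c2 : Commute (DX b h.1.1.2) ⟨d k, m⟩ := Subtype.ext (cm b k h.1.2.2).eq
  have c3 : DX a h.1.1.1 * DX a h.1.1.1 = 1 := Subtype.ext (sq a h.2.1.1)
  have c4 : DX b h.1.1.2 * DX b h.1.1.2 = 1 := Subtype.ext (sq b h.2.1.2)
  have c5 : DX a h.1.1.1 * DX b h.1.1.2 * (DX a h.1.1.1 * DX b h.1.1.2) = n :=
    Subtype.ext (by simpa [DX, dn, mul_assoc] using E3 h.2.2)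
  generalize DX a _ = A, DX b _ = B, (⟨d k, m⟩ : X) = K at *
  subst hc
  exact ⟨α A, α B, c1.map α, c2.map α, by rw [← map_mul, c3, map_one], by rw [← map_mul, c4, map_one],
    by simp only [← map_mul, c5, hn]⟩
theorem st (c : X) (h : c * c = 1 ∨ c * c = n) : St c := by
  rcases h with h | h
  · obtain ⟨k, hk, g, e, -⟩ := clsI (congrArg Subtype.val h)
    have := (tab hk).2.2.1 (e ▸ nX.conj_mem _ c.2 g)
    interval_cases k
    exacts [stD 11 12 e, stD 11 12 e, stD 11 12 e, stD 11 12 e, stD 11 12 e, stD 13 14 e]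
  · obtain ⟨g, e⟩ := clsV (congrArg Subtype.val h)
    exact stD 15 16 e
theorem st' (c : X) (h : c * c = 1 ∨ c * c = n) : ∃ a b : X, Commute a c ∧ Commute b c ∧ ⁅a, b⁆ = n :=
  let ⟨a, b, p, q, a2, b2, e⟩ := st c h
  ⟨a, b, p, q, by rw [commutatorElement_def, inv_eq_of_mul_eq_one_left a2, inv_eq_of_mul_eq_one_left b2, mul_assoc, e]⟩

theorem vd : (v : Wg) = d 10 := (cy (by decide +kernel)).trans (inv_mul_eq_one.1 (b240 _ fun q hq _ ⟨rfl, c⟩ => by
  rw [mul_smul, inv_smul_eq_iff, ← (actW_spec h1 vw ⟨rfl, c⟩).1, ← (h3 rfl ⟨rfl, c⟩).1]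
  exact nbeq.1 (allLt_iff.1 (show allLt 240 (fun a => Nat.beq (a3 10 a) (actW a1 vw a)) = true by decide +kernel) q c)))

theorem a4 (c : X) (u : Wg) (h : c * c = n) (e : u * c * u⁻¹ = c ∨ u * c * u⁻¹ = c * n) : u ∈ X := by_contra fun m => by
  obtain ⟨g, q⟩ := clsV (congrArg Subtype.val h)
  have m' : r * (g * u * g⁻¹) ∈ X := (mul_mem_iff_of_index_two idx).2 (iff_of_false rX' fun k => m (by
    simpa [mul_assoc] using nX.conj_mem _ k g⁻¹))
  have t : ((⟨_, m'⟩ * v * ⟨_, m'⟩⁻¹ : X) : Wg) = r * (g * (u * c * u⁻¹) * g⁻¹) * r⁻¹ := by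
    rw [coe_mul, coe_mul, vd, ← q, coe_inv]; group
  refine kap ⟨_, m'⟩ ?_
  rcases e with e | e <;> rw [e] at t
  · exact congrArg π (Subtype.ext (by rw [t, q, ← vd]; rfl))
  · rw [← mul_one (π _), ← πn, ← map_mul]
    exact congrArg π (Subtype.ext (by rw [t, cn, cn, q, ← vd]; rfl))

theorem c5 {a u g : Wg} {k : ℕ} (e : g * u * g⁻¹ = d k) (c : Commute a u) : Commute (g * a * g⁻¹) (d k) :=
  e ▸ c.map (MulAut.conj g)
theorem c5' {a g : Wg} (h : a ^ 5 = 1) : (g * a * g⁻¹) ^ 5 = 1 := by rw [conj_pow, h]; simp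
theorem cmn {a : Wg} {k l : ℕ} (e : d k = d l * n) (c : Commute a (d k)) : Commute a (d l) := by
  have := c.mul_right (nc a); rwa [e, mul_assoc, nn', mul_one] at this

theorem F1 (b : X) (h : b * b = 1) (b1 : b ≠ 1) (bn : b ≠ n) : n ∉ F5 b := fun m => by
  obtain ⟨k, hk, g, e, -⟩ := clsI (congrArg Subtype.val h)
  have := (tab hk).2.2.1 (e ▸ nX.conj_mem _ b.2 g)
  have l : F5 b ≤ (MulAction.stabilizer Wg (0 : ℕ)).comap ((MulAut.conj (g : Wg)).toMonoidHom.comp X.subtype) :=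
    (closure_le _).2 fun a ⟨a5, c⟩ => by
      have p := c5' (g := g) (congrArg Subtype.val a5)
      have q := c5 e (c.map X.subtype)
      show ((g : Wg) * a * (g : Wg)⁻¹) • 0 = 0
      interval_cases k
      · exact absurd (Subtype.ext (by simpa using e.trans d0)) b1
      · exact absurd (Subtype.ext ((MulAut.conj (g : Wg)).injective (by simp [e, dn, (nc g).eq]))) bn
      · exact (neg5 p (by simp) q 0 (memL_iff.1 (by decide +kernel))).2
      · exact (neg5 p (k := 2) (by simp) (cmn (mn 3 2) q) 0 (memL_iff.1 (by decide +kernel))).2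
      all_goals exact (congrArg (· • 0) (triv5 p (by simp) q)).trans (one_smul _ _)
  have : ((g : Wg) * n * (g : Wg)⁻¹) • 0 = 0 := l m
  rw [(nc _).eq, mul_inv_cancel_right, ← dn, ← (h3 rfl (show PtN 240 0 0 from ⟨rfl, by decide⟩)).1] at this
  exact absurd this (by decide +kernel)

theorem N5 (u : Wg) (h : u * u = 1) (m : f u ∈ [24, 8, 26, 6]) (a : X) (a5 : a ^ 5 = 1) (c : Commute (a : Wg) u) : a = 1 := by
  obtain ⟨k, hk, g, e, t, -⟩ := clsI h
  have p := c5' (g := g) (congrArg Subtype.val a5)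
  have q := c5 e c
  have : (g : Wg) * a * (g : Wg)⁻¹ = 1 := by
    rw [t] at m
    rcases (show ∀ k < 10, FV k ∈ [24, 8, 26, 6] → k ∈ [4, 5, 8] ∨ k = 9 by decide) k hk m with s | rfl
    exacts [triv5 p s q, triv5 p (k := 8) (by simp) (cmn (mn 9 8) q)]
  exact Subtype.ext (by simpa using this)

theorem dat : Dat X n f where
  idx := idx
  nc := nc
  fc := fc
  f1 := d0 ▸ g1 0 240
  fn := dn ▸ g1 1 0
  U a b ha hb e := by
    obtain ⟨k, hk, g, p, s, -⟩ := clsI ha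
    obtain ⟨l, hl, h, q, t, -⟩ := clsI hb
    obtain rfl := (show ∀ k < 10, ∀ l < 10, FV k = FV l → k = l by decide) k hk l hl (by rw [← s, e, t])
    exact ⟨h⁻¹ * g, (MulAut.conj (h : Wg)).injective (by simp [q, ← p, mul_assoc])⟩
  VI a h := by
    obtain ⟨k, hk, g, e, s, t⟩ := clsI (congrArg Subtype.val h)
    have := (tab hk).2.2.1 (e ▸ nX.conj_mem _ a.2 g)
    rw [s, t]
    interval_cases k
    · exact .inl (Subtype.ext (by simpa using e.trans d0))
    · exact .inr (.inl (Subtype.ext ((MulAut.conj (g : Wg)).injective (by simp [e, dn, (nc g).eq]))))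
    all_goals exact .inr (.inr (by decide))
  VO a m h := by
    have h : a * a = 1 := h.resolve_right fun h => by
      obtain ⟨g, e⟩ := clsV h
      exact m (by simpa [← e, mul_assoc] using nX.conj_mem (d 10) (DX 10).2 g⁻¹)
    obtain ⟨k, hk, g, e, s, t⟩ := clsI h
    have : ¬k < 6 := fun c => m (by simpa [← e, mul_assoc] using nX.conj_mem _ ((tab hk).2.2.2 c) (g : Wg)⁻¹)
    rw [s, t]
    exact ⟨h, by interval_cases k <;> first | omega | decide⟩
  st := st'
  rt c h := let ⟨a, b, p, q, _, _, e⟩ := st c (.inl h); ⟨a * b, p.mul_left q, e⟩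
  a4 := a4
  F1 := F1
  N5 := N5
  d2 := ⟨DX 3, Subtype.ext (sq 3), g1 3 4, (show DX 17 * (DX 18 * DX 19) = DX 3 from Subtype.ext (by
    simpa [DX] using E3 (u := [17, 18, 19]) (v := [3]) (by decide +kernel))).subst (motive := (· ∈ F5 (DX 3)))
    (mul_mem (subset_closure ⟨Subtype.ext (p5 17), Subtype.ext (cm 17 3)⟩) (mul_mem
      (subset_closure ⟨Subtype.ext (p5 18), Subtype.ext (cm 18 3)⟩) (subset_closure ⟨Subtype.ext (p5 19), Subtype.ext (cm 19 3)⟩)))⟩
  d1 := ⟨DX 2, DX 20, DX 21, DX 22, Subtype.ext (sq 2), g1 2 60, Subtype.ext (sq 20), g1 20 60, Subtype.ext (cm 20 2),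
    g2 20 2 60, Subtype.ext (p5 21), Subtype.ext (p5 22), Subtype.ext (cm 21 2), Subtype.ext (cm 21 20),
    Subtype.ext (cm 22 2), Subtype.ext (cm 22 20), Subtype.ext (by
      simpa [DX, mul_assoc] using E3 (u := [21, 22, 21, 22]) (v := []) (by decide +kernel)),
    fun e => absurd ((g2 21 22 60).symm.trans ((congrArg (f ·.1) e).trans (d0 ▸ g1 0 240))) (by decide)⟩
  d34 := ⟨DX 4, DX 2, DX 23, DX 24, DX 25, Subtype.ext (sq 4), g1 4 24, Subtype.ext (sq 2), g1 2 60, Subtype.ext (cm 2 4),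
    Subtype.ext (cm 23 4), Subtype.ext (cm 24 4), Subtype.ext (cm 23 2), Subtype.ext (cm 24 2), by
      rw [commutatorElement_def, mul_inv_eq_iff_eq_mul, mul_inv_eq_iff_eq_mul]
      exact Subtype.ext (by simpa [DX, mul_assoc] using E3 (u := [23, 24]) (v := [2, 24, 23]) (by decide +kernel)),
    Subtype.ext (cm 25 4), Subtype.ext (by
      simpa [DX, mul_assoc] using E3 (u := [25, 2]) (v := [2, 4, 25]) (by decide +kernel))⟩
  ds := List.forall_mem_cons.2 ⟨⟨d 8, DX 26, DX 27, sq 8, g1 8 26, Subtype.ext (sq 26), Subtype.ext (sq 27),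
    Subtype.ext (cm 26 27), cm 26 8, cm 27 8, g1 26 60, g1 27 60, g2 26 27 24, g2 8 26 26, g2 8 27 26, g3 8 26 27 26⟩,
    List.forall_mem_singleton.2 ⟨d 8, DX 26, DX 28, sq 8, g1 8 26, Subtype.ext (sq 26), Subtype.ext (sq 28),
    Subtype.ext (cm 26 28), cm 26 8, cm 28 8, g1 26 60, g1 28 60, g2 26 28 8, g2 8 26 26, g2 8 28 26, g3 8 26 28 26⟩⟩
  dr := ⟨d 6, sq 6, g1 6 126, List.forall_mem_cons.2 ⟨⟨DX 4, DX 29, DX 0, Subtype.ext (sq 4), g1 4 24, Subtype.ext (by
      simpa [DX, mul_assoc] using E3 (u := [4]) (v := [29, 29, 0, 0]) (by decide +kernel)), cm 29 6, cm 0 6, g2 6 4 6⟩,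
    List.forall_mem_singleton.2 ⟨DX 5, DX 30, DX 31, Subtype.ext (sq 5), g1 5 8, Subtype.ext (by
      simpa [DX, mul_assoc] using E3 (u := [5]) (v := [30, 30, 31, 31]) (by decide +kernel)), cm 30 6, cm 31 6, g2 6 5 6⟩⟩⟩
  dy := List.forall_mem_cons.2 ⟨⟨DX 4, DX 32, Subtype.ext (sq 4), Subtype.ext (sq 32), g1 4 24, g1 32 24,
    Subtype.ext (cm 32 4), g2 32 4 60⟩, List.forall_mem_singleton.2 ⟨DX 5, DX 33, Subtype.ext (sq 5), Subtype.ext (sq 33),
    g1 5 8, g1 33 8, Subtype.ext (cm 33 5), g2 33 5 60⟩⟩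

theorem ker_cen : π.ker ≤ center X := ker_eq ▸ zpowers_le.2 (mem_center_iff.2 fun a => Subtype.ext (nc a))
theorem stem : IsStemExtension π := ⟨π_surj, ker_cen, by
  obtain ⟨a, b, -, -, e⟩ := st' 1 (.inl (mul_one 1))
  exact ker_eq ▸ zpowers_le.2 (e ▸ commutator_mem_commutator (mem_top a) (mem_top b))⟩
theorem perfG : Group.IsPerfect O82P.G := Group.isPerfect_def.2
  ((simple.eq_bot_or_eq_top_of_normal _ inferInstance).resolve_left fun e => by
    have := (commutator_eq_bot_iff_center_eq_top (G := O82P.G)).1 e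
    rw [cen] at this
    have _ := simple
    exact bot_ne_top this)
theorem cen_eq : center X = π.ker := le_antisymm (fun a h => mem_bot.1 (cen ▸ mem_center_iff.2 fun g => by
  obtain ⟨b, rfl⟩ := π_surj g
  rw [← map_mul, mem_center_iff.1 h, map_mul])) ker_cen
theorem cen' (a : X) : a ∈ center X ↔ a = 1 ∨ a = n := by rw [cen_eq, ker_eq, Invol.mem_zpowers_invol nn]
theorem out6 : Nat.card (Out O82P.G) = 6 := by
  obtain ⟨e⟩ := equiv (ZMod.card 2)
  obtain ⟨e'⟩ := (if_pos rfl).mp (S2607.result (F := ZMod 2) (f := 1) (m := 4) le_rfl (ZMod.card 2) le_rfl)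
  rw [← card_out_congr e, Nat.card_congr e'.toEquiv]
  simp [Fintype.card_perm]; rfl

theorem isol {G : Type*} [Group G] [Finite G] {j : X →* G} (H : SZ j n) (g : G)
    (c : Commute (j n) (g * j n * g⁻¹)) : g * j n * g⁻¹ = j n := H.isolE dat (fun g hg => by
  let e := MonoidHom.ofInjective H.inj
  let β : X ≃* X := e.trans ((j.range.normalizerMonoidHom ⟨g, H.cz hg⟩).trans e.symm)
  have hβ : ∀ x, j (β x) = g * j x * g⁻¹ := fun x => MonoidHom.apply_ofInjective_symm H.inj _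
  obtain ⟨a, h | h⟩ := aut2 stem cen_eq perfG out6 (α₀ := MulAut.conjNormal r) (by rw [← map_mul, rr, map_one])
    (fun ⟨a, h⟩ => kap a (h v)) ine1 card_ker β
  · exact ⟨a, fun y => by rw [← hβ, h]; rfl⟩
  · exact ⟨a * r, fun y => by rw [← hβ, h, map_mul]; rfl⟩) g c

end Cfsg.Agent.StdZ.E8
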