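import Cfsg.Agent.StdZ.RuT
import Cfsg.Agent.Known.RuOut
import Cfsg.Agent.S3974

/-! Involutions of the double cover of the Rudvalis group; a standard copy has an isolated centre (`isol`) (helper23). -/

set_option autoImplicit false
set_option maxRecDepth 100000
set_option linter.unusedSectionVars false

namespace Cfsg.Agent.StdZ.Ru

open Subgroup Cfsg.Agent.Comp Cfsg.Agent.Known Cfsg.Agent.Known.RuT Cfsg.Agent.BG

scoped instance finX : Finite X := by
  have : Finite π.ker := Finite.of_injective (fun a : π.ker => (⟨ρ a, ker0 a.2⟩ : ({1, zz} : Set PM)))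
    fun a b e => Subtype.ext (ext' (a.2.trans b.2.symm) (congrArg Subtype.val e))
  exact Schur.finite_of_finite_ker π

noncomputable def x (i : ℕ) : X := W y (nthL [] xw i)
noncomputable abbrev n : X := x 14
noncomputable abbrev t : X := x 13
noncomputable def el (c : ℕ) : X := W x (wd 15 0 c)
noncomputable def T : Subgroup X := closure (x '' {i | i < 15})
def P0 (a : ℕ) (p : ℕ × ZMod 2) : Prop := a < 112 ∧ p = pt (pts a)
def Lt (u : List ℕ) : Prop := ∀ l ∈ u, l < 15

theorem e4_spec {u v : List ℕ} (h : e4 u v = true) : π (W x u) = π (W x v) := by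
  have : (fun i => π (x i)) = fun i => W RuT.y (nthL [] xw i) := funext fun i => by
    rw [x, map_W, funext π_y]
  rw [map_W, map_W, this]
  exact eq_of_eqB (isCanon_PtN 4060).func (hy.words xw) base h

theorem can0 : IsCanon P0 := ⟨fun _ _ _ h h' => h.2.trans h'.2.symm, fun a b _ h h' => by
  have e := pt_inj (h.2.symm.trans h'.2)
  have k := fun a ha => ((Bool.and_eq_true _ _).mp ((band_eq _ _).symm.trans (allLt_iff.1 k1 a ha))).2
  rcases lt_trichotomy a b with c | c | c
  · exact absurd (nblt.1 (allLt_iff.1 (k b h'.1) a c)) e.not_lt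
  · exact c
  · exact absurd (nblt.1 (allLt_iff.1 (k a h.1) b c)) e.not_gt⟩

theorem act0_spec {u : List ℕ} (hu : Lt u) {a : ℕ} {p : ℕ × ZMod 2} (h : P0 a p) : P0 (actW act0 u a) (W x u • p) := by
  induction u with
  | nil => rw [W_nil, one_smul]; exact h
  | cons c u ih =>
    obtain ⟨h1, h2⟩ := ih fun l hl => hu l (List.mem_cons_of_mem _ hl)
    have k := allLt_iff.1 (allB_spec k0 (c := c) (hu c List.mem_cons_self)) _ h1
    rw [band_eq, Bool.and_eq_true, nblt, nbeq] at k
    have k' := allLt_iff.1 k1 _ h1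
    rw [band_eq, Bool.and_eq_true, nblt] at k'
    rw [show actW act0 (c :: u) a = act0 c (actW act0 u a) from force_eq _ _, W_cons, mul_smul, h2]
    exact ⟨k.1, k.2 ▸ (actW_spec hy16 _ ⟨k'.1, rfl⟩).2⟩

theorem p0 {a : ℕ} (h : a < 112) : P0 a (pt (pts a)) := ⟨h, rfl⟩

theorem ne0 {u v : List ℕ} (hu : Lt u) (hv : Lt v) (h : W x u = W x v) {b : ℕ} (hb : b < 112) :
    actW act0 u b = actW act0 v b := can0.canon (act0_spec hu (p0 hb)) (h ▸ act0_spec hv (p0 hb))

theorem πn : π n = 1 := by simpa using e4_spec (u := [14]) (v := []) (by decide +kernel)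
theorem n1 : n ≠ 1 := fun e => absurd (ne0 (u := [14]) (v := []) (by simp [Lt]) (by simp [Lt]) (by simpa using e)
  (b := 0) (by decide)) (by decide +kernel)

theorem ker2 {a : X} (h : π a = 1) : a = 1 ∨ a = n := (ker0 h).imp (fun e => ext' (by rw [h, map_one]) (by rw [e, map_one]))
  fun e => ext' (h.trans πn.symm) (e.trans ((ker0 πn).resolve_left fun f => n1 (ext' (by rw [πn, map_one])
    (by rw [f, map_one]))).symm)

theorem nn : n * n = 1 := (ker2 (by rw [map_mul, πn, mul_one])).resolve_right fun e => n1 (mul_eq_left.1 e)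
theorem nc (a : X) : Commute a n := mem_center_iff.1 (ker_cen πn) a

theorem πeq {a b : X} (h : π a = π b) : a = b ∨ a = b * n :=
  (ker2 (a := b⁻¹ * a) (by rw [map_mul, map_inv, h, inv_mul_cancel])).imp (fun e => (inv_mul_eq_one.1 e).symm)
    inv_mul_eq_iff_eq_mul.1

theorem rel : D.Rel x := D.rel_of_eq (eq := eX) (fun u v h => by
  simp only [eX, band_eq, Bool.and_eq_true, nbeq, allL_iff, nblt] at h
  refine (πeq (e4_spec h.2.1)).resolve_right fun e => ?_
  have h1 := act0_spec h.1.1 (p0 (a := 0) (by decide))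
  have h2 := can0.func (h.2.2 ▸ h1) (act0_spec h.1.2 (p0 (a := 0) (by decide)))
  rw [e, mul_smul, smul_left_cancel_iff] at h2
  have h3 := act0_spec (u := [14]) (by simp [Lt]) (p0 (a := 0) (by decide))
  rw [W_cons, W_nil, mul_one, h2] at h3
  exact absurd (can0.canon h3 (p0 (by decide))) (by decide +kernel)) (allLt_iff.1 k2) rfl

theorem WT_mem {u : List ℕ} (h : Lt u) : W x u ∈ T := W_mem x fun l hl => subset_closure ⟨l, h l hl, rfl⟩
theorem Lwd (c : ℕ) : Lt (wd 15 0 c) := wd_lt 15 0 c
theorem Lt.app {u v : List ℕ} (h : Lt u) (k : Lt v) : Lt (appendL u v) := fun l hl => by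
  rw [appendL_eq, List.mem_append] at hl; exact hl.elim (h l) (k l)

theorem T_eq : (T : Set X) = el '' Set.Iio (32 * 1024) := by
  refine Set.Subset.antisymm (fun g hg => ?_) (by rintro _ ⟨c, -, rfl⟩; exact WT_mem (Lwd c))
  obtain ⟨c, hc, e⟩ := nf (D := D) (by decide +kernel) rfl rel 15 0 rfl g (by simp only [zero_le, true_and]; exact hg)
  exact ⟨c, hc, e.symm⟩

theorem isA : IsAct (fun i g => g = W x (nthL [] sw i)) P0 fun i => actW act0 (nthL [] sw i) := by
  rintro i _ a p rfl h
  refine act0_spec (fun l hl => ?_) h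
  rcases nthL_mem_or [] sw i with e | e
  · exact nblt.1 (allL_iff.1 (allL_iff.1 (show allL sw (fun w => allL w fun l => Nat.blt l 15) = true by decide +kernel) _ e) l hl)
  · rw [e] at hl; exact absurd hl List.not_mem_nil

theorem cIn : CodesIn (fun i g => g = W x (nthL [] sw i)) (List.range (lenL sw)) T := fun i _ => ⟨_, by
  refine WT_mem fun l hl => ?_
  rcases nthL_mem_or [] sw i with e | e
  · exact nblt.1 (allL_iff.1 (allL_iff.1 (show allL sw (fun w => allL w fun l => Nat.blt l 15) = true by decide +kernel) _ e) l hl)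
  · rw [e] at hl; exact absurd hl List.not_mem_nil, rfl⟩

theorem hB : ∀ b ∈ [4, 0, 12, 16], ∃ p, P0 b p := fun b hb => ⟨_, p0 (by revert b; decide)⟩
theorem T_le : Nat.card T ≤ 32768 := (D.card_closure_le (by decide +kernel) rel.pow rel.conj).2
theorem card_T : Nat.card T = 2 ^ 15 :=
  T_le.antisymm ((nble.1 k3).trans (chainL_le_card isA can0.func can0.canon _ hB _ _ cIn))

theorem e0_iff {u v : List ℕ} (hu : Lt u) (hv : Lt v) : e0 u v = true ↔ W x u = W x v := by
  rw [e0, eqB, allL_iff]
  refine ⟨fun h => ?_, fun h b hb => nbeq.2 (ne0 hu hv h (by revert b; decide))⟩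
  rw [← inv_mul_eq_one]
  refine congrArg Subtype.val (isBase_of_chainL isA can0 hB cIn (T_le.trans (nble.1 k3))
    ⟨_, mul_mem (inv_mem (WT_mem hu)) (WT_mem hv)⟩ fun b hb p hp => ?_)
  show ((W x u)⁻¹ * W x v) • p = p
  rw [mul_smul, inv_smul_eq_iff]
  exact can0.func (act0_spec hv hp) (nbeq.1 (h b hb) ▸ act0_spec hu hp)

theorem sqc_iff {u : List ℕ} (hu : Lt u) (c : ℕ) : sqc u c = true ↔ el c * el c = W x u := by
  rw [sqc, forceL_eq, e0_iff ((Lwd c).app (Lwd c)) hu, appendL_eq, W_append]; rfl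

theorem ker_eq : π.ker = zpowers n := by
  ext a; rw [Invol.mem_zpowers_invol nn]
  exact ⟨ker2, by rintro (rfl | rfl); exacts [one_mem _, πn]⟩
theorem n2 : orderOf n = 2 := Invol.orderOf_two_iff.2 ⟨nn, n1⟩
theorem card_ker : Nat.card π.ker = 2 := by rw [ker_eq, Nat.card_zpowers, n2]
theorem card_X : Nat.card (⊤ : Subgroup X) = 291852288000 := by
  rw [card_top, ← π.ker.index_mul_card, index_ker, MonoidHom.range_eq_top.2 π_surj, card_top, Spor.MdRu.card, card_ker]

theorem pT : IsPGroup 2 T := IsPGroup.of_card card_T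
theorem maxT (U : Subgroup X) (h : IsPGroup 2 U) (l : T ≤ U) : U ≤ T := by
  have : Fact (Nat.Prime 2) := ⟨Nat.prime_two⟩
  obtain ⟨k, e⟩ := h.exists_card_eq
  have d := card_dvd_of_le (le_top : U ≤ ⊤)
  rw [e, card_X] at d
  refine (eq_of_le_of_card_ge l ?_).ge
  rw [e, card_T]
  exact Nat.pow_le_pow_right two_pos (by_contra fun c => absurd ((pow_dvd_pow 2 (not_le.1 c)).trans d) (by decide))

theorem eqW {u v : List ℕ} (h : band (band (allL u fun l => Nat.blt l 15) (allL v fun l => Nat.blt l 15)) (e0 u v) = true) :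
    W x u = W x v := by
  simp only [band_eq, Bool.and_eq_true, allL_iff, nblt] at h
  exact (e0_iff h.1.1 h.1.2).1 h.2

noncomputable abbrev s : X := el 265
theorem s2 : s * s = n := by simpa using (sqc_iff (u := [14]) (by simp [Lt]) 265).1 (by decide +kernel)
theorem t2 : t * t = 1 := by simpa using eqW (u := [13, 13]) (v := []) (by decide +kernel)
theorem t1 : t ≠ 1 := fun e => absurd ((e0_iff (u := [13]) (v := []) (by simp [Lt]) (by simp [Lt])).2 (by simpa using e))
  (by decide +kernel)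
theorem tn : t ≠ n := fun e => absurd ((e0_iff (u := [13]) (v := [14]) (by simp [Lt]) (by simp [Lt])).2 (by simpa using e))
  (by decide +kernel)
theorem tc : ∀ a ∈ T, Commute a t := fun _ ha => mem_cent1.1 ((closure_le C1[t]).2 (by
  rintro _ ⟨i, hi, rfl⟩
  have := (e0_iff (u := [i, 13]) (v := [13, i]) (by simpa [Lt] using hi) (by simpa [Lt] using hi)).1
    (allLt_iff.1 (show allLt 15 (fun i => e0 [i, 13] [13, i]) = true by decide +kernel) i hi)
  rw [W_cons, W_cons, W_cons, W_cons, W_nil, mul_one, mul_one] at this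
  exact mem_cent1.2 this) ha)
theorem sn : W x [7, 8] * (s * n) * (W x [7, 8])⁻¹ = s := by
  rw [mul_inv_eq_iff_eq_mul]
  have := eqW (u := [7, 8] ++ wd 15 0 265 ++ [14]) (v := wd 15 0 265 ++ [7, 8]) (by decide +kernel)
  rw [W_append, W_append, W_append, W_cons x 14, W_nil, mul_one, mul_assoc] at this
  exact this

theorem cls {a : X} (h : a * a = 1 ∨ a * a = n) : ∃ c ∈ [1, t, s], IsConj a c ∨ IsConj a (c * n) := by
  obtain ⟨g, -, m⟩ := exists_conj_mem_sylow (K := ⊤) (P := T) (j := 2) Nat.prime_two le_top card_T card_X (by decide)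
    (mem_top a) (by rw [pow_two, pow_mul, pow_two a, pow_two]; rcases h with h | h <;> rw [h]; exacts [mul_one 1, nn])
  obtain ⟨c, hc, e⟩ := T_eq ▸ (show _ ∈ (T : Set X) from m)
  have k := allB_spec k5 hc
  have q : bor (sqc [] c) (sqc [14] c) = true := by
    rw [bor_eq, Bool.or_eq_true, sqc_iff (by simp [Lt]), sqc_iff (by simp [Lt]), e, conj_mul]
    exact h.imp (fun h => by simp [h]) fun h => by rw [h, (nc g).eq]; simp
  simp only [chA, q, bor_eq, force_eq, band_eq, Bool.not_true, Bool.false_or, Bool.and_eq_true, anyL_iff, nbeq] at k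
  obtain ⟨k, r, hr, f⟩ := k
  rw [← f, e0_iff ((Lwd _).app (Lwd _)) ((Lwd _).app (Lwd _)), appendL_eq, appendL_eq, W_append, W_append] at k
  have k' := allL_iff.1 k4 r hr
  rw [band_eq, Bool.and_eq_true, memL_iff] at k'
  have l := e4_spec k'.2
  rw [appendL_eq, appendL_eq, W_append, W_append] at l
  replace l := congrArg (· * π (W x r.2.2)⁻¹) l
  rw [← map_mul] at l
  have c1 : IsConj a (W x r.2.2 * el r.1 * (W x r.2.2)⁻¹) := (isConj_iff.2 ⟨g, e.symm⟩).trans
    ((isConj_iff.2 ⟨_, mul_inv_eq_iff_eq_mul.2 k⟩).trans (isConj_iff.2 ⟨_, rfl⟩))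
  rw [← map_mul, mul_inv_cancel_right] at l
  refine ⟨el r.2.1, ?_, (πeq l).imp (fun e => by rw [el, ← e]; exact c1) fun e => by rw [el, ← e]; exact c1⟩
  have e1 : el 0 = 1 := rfl
  have e2 : el 8192 = t := mul_one _
  simp only [List.mem_cons, List.not_mem_nil, or_false] at k' ⊢
  exact k'.1.imp (fun e => by rw [e, e1]) (Or.imp (fun e => by rw [e, e2]) (congrArg el))

theorem csq {a b : X} (h : IsConj a b) : IsConj (a * a) (b * b) := by simpa [pow_two] using h.pow 2
theorem cn {a : X} (h : IsConj n a) : a = n := by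
  obtain ⟨g, rfl⟩ := isConj_iff.1 h
  rw [(nc g).eq, mul_inv_cancel_right]
theorem sqn (c : X) : c * n * (c * n) = c * c := by rw [(nc _).symm.mul_mul_mul_comm, nn, mul_one]

theorem to_s (a : X) (h : a * a = n) : ∃ g, g * a * g⁻¹ = s := by
  obtain ⟨c, hc, k⟩ := cls (.inr h)
  have q : c * c = n := k.elim (fun k => cn (h ▸ csq k)) fun k => (sqn c).symm.trans (cn (h ▸ csq k :))
  simp only [List.mem_cons, List.not_mem_nil, or_false] at hc
  rcases hc with rfl | rfl | rfl
  · exact absurd (q.symm.trans (mul_one 1)) n1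
  · exact absurd (q.symm.trans t2) n1
  · exact isConj_iff.1 (k.elim id fun k => k.trans (isConj_iff.2 ⟨_, sn⟩))

theorem stem : IsStemExtension π := ⟨π_surj, ker_cen, by
  rw [ker_eq, zpowers_le]
  have := commutator_mem_commutator (mem_top s⁻¹) (mem_top (W x [7, 8])⁻¹)
  refine Eq.mp (congrArg (· ∈ _) ?_) this
  rw [commutatorElement_def]
  nth_rw 2 [← sn]
  group⟩

theorem cenG : center Spor.MdRu.G = ⊥ := (Spor.MdRu.simple.eq_bot_or_eq_top_of_normal _ inferInstance).resolve_right fun e => by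
  have := mem_center_iff.1 (e ▸ mem_top (π (x 0))) (π (x 1))
  rw [← map_mul, ← map_mul] at this
  rcases πeq this with f | f
  · exact absurd ((e0_iff (u := [1, 0]) (v := [0, 1]) (by simp [Lt]) (by simp [Lt])).2 (by simpa using f)) (by decide +kernel)
  · exact absurd ((e0_iff (u := [1, 0]) (v := [0, 1, 14]) (by simp [Lt]) (by simp [Lt])).2 (by simpa [mul_assoc] using f))
      (by decide +kernel)

theorem perfG : Group.IsPerfect Spor.MdRu.G := Group.isPerfect_def.2
  ((Spor.MdRu.simple.eq_bot_or_eq_top_of_normal _ inferInstance).resolve_left fun e => by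
    have := (commutator_eq_bot_iff_center_eq_top (G := Spor.MdRu.G)).1 e
    rw [cenG] at this
    have _ := Spor.MdRu.simple
    exact bot_ne_top this)

theorem cen_eq : center X = π.ker := le_antisymm (fun a h => mem_bot.1 (cenG ▸ mem_center_iff.2 fun g => by
  obtain ⟨b, rfl⟩ := π_surj g
  rw [← map_mul, mem_center_iff.1 h, map_mul])) ker_cen

theorem cen (a : X) : a ∈ center X ↔ a = 1 ∨ a = n := by rw [cen_eq, ker_eq, Invol.mem_zpowers_invol nn]

theorem isol {G : Type*} [Group G] [Finite G] {j : X →* G} (H : SZ j n) (g : G)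
    (c : Commute (j n) (g * j n * g⁻¹)) : g * j n * g⁻¹ = j n := by
  have dec : ∀ g ∈ C1[j n], ∃ a, ∃ k ∈ C[j.range], g = j a * k := fun g hg =>
    H.dec (Group.isPerfect_def.1 (Schur.isPerfect_of_stem perfG stem)) ((card_out_congr ((QuotientGroup.quotientMulEquivOfEq
      cen_eq).trans (QuotientGroup.quotientKerEquivOfSurjective π π_surj))).trans RuO.out) (H.cz hg)
  have r : ∀ {u : List ℕ}, Lt u → rt T (W x u) = cntB 32 1024 (sqc u) := fun hu => rt_cnt T_eq card_T (sqc_iff hu)
  have r1 : rt T n = 384 := by simpa using (r (by simp [Lt])).trans c1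
  have r2 : rt T t = 608 := by simpa using (r (by simp [Lt])).trans c2
  have r3 : rt T (t * n) = 256 := by simpa using (r (by simp [Lt])).trans c3
  have hn : n ∈ T := subset_closure ⟨14, by simp, rfl⟩
  refine H.isol_of dec (fun b b2 k => ?_) to_s s2 t2 (tc _ (WT_mem (Lwd _))).symm t1 tn g c
  obtain ⟨d, hd, q⟩ := cls (.inl b2)
  have q2 : d * d = 1 := q.elim (fun k => isConj_one_right.1 (b2 ▸ csq k)) fun k => sqn d ▸ isConj_one_right.1 (b2 ▸ csq k)
  simp only [List.mem_cons, List.not_mem_nil, or_false] at hd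
  rcases hd with rfl | rfl | rfl
  · rcases q with q | q
    · rw [isConj_one_left.1 q, map_one, isConj_one_left] at k; exact absurd k H.z1
    · exact cn (one_mul n ▸ q.symm)
  · rcases q with q | q
    · exact absurd (k.trans (j.map_isConj q)) (H.noconj dec pT maxT hn tc (by omega) (by omega))
    · exact absurd (k.trans (j.map_isConj q)) (H.noconj dec pT maxT hn (fun a ha => (tc a ha).mul_right (nc a)) (by omega)
        (by rw [mul_assoc, nn, mul_one]; omega))
  · exact absurd (s2.symm.trans q2) n1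

end Cfsg.Agent.StdZ.Ru
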