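import Cfsg.Agent.StdZ.Gen
import Cfsg.Agent.BG.Base4

/-! Standard subgroup `X` of index 2 in a model group `W`: basic calculus (`Act`, `In`, `K0`) (helper23). -/

set_option autoImplicit false
set_option linter.unusedSectionVars false

namespace Cfsg.Agent.StdZ

open Subgroup Cfsg.Agent.BG
open scoped commutatorElement

variable {G W : Type*} [Group G] [Finite G] [Group W] {X : Subgroup W} [X.Normal] {j : X →* G} {n : X} {f : W → ℕ}

def F5 (b : X) : Subgroup X := closure {a | a ^ 5 = 1 ∧ Commute a b}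
def Act (j : X →* G) (g : G) (w : W) : Prop := ∀ x : X, g * j x * g⁻¹ = j (MulAut.conjNormal w x)
def In (j : X →* G) (g : G) : Prop := ∃ a : X, Act j g a

theorem Act.mul {g h : G} {v w : W} (a : Act j g v) (b : Act j h w) : Act j (g * h) (v * w) := fun x => by
  rw [map_mul, MulAut.mul_apply, ← a, ← b]; group
theorem Act.inv {g : G} {v : W} (a : Act j g v) : Act j g⁻¹ v⁻¹ := fun x => by
  have := a (MulAut.conjNormal v⁻¹ x)
  rw [← MulAut.mul_apply, ← map_mul, mul_inv_cancel, map_one, MulAut.one_apply] at this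
  rw [← this]; group
theorem act_j (a : X) : Act j (j a) a := fun x => by
  rw [← map_inv, ← map_mul, ← map_mul]; rfl
theorem act_k {k : G} (h : k ∈ C[j.range]) : Act j k 1 := fun x => by
  rw [map_one, MulAut.one_apply, ← (kc h x).eq, mul_inv_cancel_right]
theorem in_j (a : X) : In j (j a) := ⟨a, act_j a⟩
theorem Act.dec {g : G} {a : X} (h : Act j g a) : ∃ k ∈ C[j.range], g = j a * k := by
  refine ⟨(j a)⁻¹ * g, ?_, by group⟩
  rintro _ ⟨x, rfl⟩
  have := (act_j a).inv.mul h x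
  rw [inv_mul_cancel, map_one, MulAut.one_apply] at this
  exact (mul_inv_eq_iff_eq_mul.1 this).symm
theorem Act.cK {g k : G} {w : W} (h : Act j g w) (hk : k ∈ C[j.range]) : g * k * g⁻¹ ∈ C[j.range] := by
  rintro _ ⟨x, rfl⟩
  have := (h.mul (act_k hk)).mul h.inv x
  rw [mul_one, mul_inv_cancel, map_one, MulAut.one_apply] at this
  exact (mul_inv_eq_iff_eq_mul.1 this).symm
theorem Act.tc {t : G} {w : W} (h : Act j t w) {x c : X} (e : x * w * (x : W)⁻¹ = w * c) : IsConj t (t * j c) :=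
  isConj_iff.2 ⟨j x, by
    have : c = MulAut.conjNormal w⁻¹ x * x⁻¹ := Subtype.ext (mul_left_cancel (e.symm.trans (by simp [mul_assoc])))
    rw [this, map_mul, ← h.inv x, map_inv]; group⟩
theorem Act.comm {t : G} {w : W} (h : Act j t w) {c : X} (e : Commute (c : W) w) : Commute (j c) t := by
  have := h c
  rw [show MulAut.conjNormal w c = c from Subtype.ext (by simp [← e.eq])] at this
  exact (mul_inv_eq_iff_eq_mul.1 this).symm

theorem pz {u : G} (e : u * u * (u * u) = 1) : IsPGroup 2 (zpowers u) := fun ⟨_, i, f⟩ => ⟨2, Subtype.ext (by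
  subst f
  show (u ^ i) ^ 2 ^ 2 = 1
  rw [← zpow_natCast, ← zpow_mul, mul_comm, zpow_mul, zpow_natCast, pow_two, pow_mul, pow_two, pow_two, e, one_zpow])⟩

theorem mM {φ : MulAut G} {u y : G} (e : φ u = j n) (c : Commute y u) : φ y ∈ C1[j n] := mem_cent1.2 (e ▸ c.map φ)

theorem exφ {u : G} (h : IsConj (j n) u) : ∃ φ : MulAut G, (∀ y, IsConj y (φ y)) ∧ φ u = j n := by
  obtain ⟨g, e⟩ := isConj_iff.1 h.symm
  exact ⟨MulAut.conj g, fun y => isConj_iff.2 ⟨g, rfl⟩, e⟩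

namespace SZ
variable (H : SZ j n)
include H

theorem jM (a : X) : j a ∈ C1[j n] := mem_cent1.2 (H.jz a)
theorem zsq {u : G} (h : IsConj (j n) u) : u * u = 1 := by
  obtain ⟨g, rfl⟩ := isConj_iff.1 h; rw [conj_mul, H.zz]; simp
theorem zne {u : G} (h : IsConj (j n) u) : u ≠ 1 := by rintro rfl; exact H.z1 (isConj_one_left.1 h)

theorem exK0 : ∃ K : Subgroup G, K ≤ C[j.range] ∧ j n ∉ K ∧ (∀ k ∈ C[j.range], ∀ l ∈ C[j.range], ⁅k, l⁆ ∈ K) ∧
    ∀ k ∈ C[j.range], k ^ 5 = 1 → k ∈ K := by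
  have : Fact (Nat.Prime 2) := ⟨Nat.prime_two⟩
  obtain ⟨P⟩ : Nonempty (Sylow 2 C[j.range]) := inferInstance
  have hp : (Nat.card C[j.range]).minFac = 2 := (Nat.minFac_eq_two_iff _).2 (H.oz ▸ orderOf_dvd_natCard _ H.zK)
  let t := MonoidHom.transferSylow P ((H.cyc P).normalizer_le_centralizer hp)
  have := H.cyc P
  have := IsCyclic.isMulCommutative (α := (P : Subgroup C[j.range]))
  refine ⟨t.ker.map (Subgroup.subtype _), map_subtype_le _, ?_, fun k hk l hl => ⟨⁅(⟨k, hk⟩ : C[j.range]), ⟨l, hl⟩⁆, ?_, rfl⟩,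
    fun k hk e => ⟨⟨k, hk⟩, ?_, rfl⟩⟩
  · rintro ⟨y, hy, e⟩
    have := (MonoidHom.ker_transferSylow_disjoint P _ (zpowers y) (pz (Subtype.ext (by
      simp only [coe_mul, show (y : G) = j n from e, H.zz, mul_one, coe_one])))).le_bot ⟨hy, mem_zpowers y⟩
    exact H.z1 (e.symm.trans (congrArg Subtype.val (mem_bot.1 this)))
  · show t _ = 1
    rw [map_commutatorElement, commutatorElement_eq_one_iff_mul_comm]; exact this.is_comm.comm _ _
  · obtain ⟨m, hm⟩ := P.2 (t ⟨k, hk⟩)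
    have := pow_gcd_eq_one.2 ⟨hm, show t ⟨k, hk⟩ ^ 5 = 1 by rw [← map_pow, show (⟨k, hk⟩ ^ 5 : C[j.range]) = 1 from
      Subtype.ext e, map_one]⟩
    rwa [show Nat.gcd (2 ^ m) 5 = 1 from Nat.Coprime.pow_left m (by decide), pow_one] at this

noncomputable def K0 : Subgroup G := H.exK0.choose
theorem K0le : H.K0 ≤ C[j.range] := H.exK0.choose_spec.1
theorem K0z : j n ∉ H.K0 := H.exK0.choose_spec.2.1

def DD (S : Subgroup X) : Subgroup G where
  carrier := {g | ∃ a ∈ S, ∃ k ∈ H.K0, g = j a * k}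
  one_mem' := ⟨1, one_mem _, 1, one_mem _, by simp⟩
  mul_mem' := by
    rintro _ _ ⟨a, ha, k, hk, rfl⟩ ⟨b, hb, l, hl, rfl⟩
    exact ⟨_, mul_mem ha hb, _, mul_mem hk hl, by rw [map_mul, (kc (H.K0le hk) b).symm.mul_mul_mul_comm]⟩
  inv_mem' := by
    rintro _ ⟨a, ha, k, hk, rfl⟩
    exact ⟨_, inv_mem ha, _, inv_mem hk, by rw [map_inv, ← mul_inv_rev, (kc (H.K0le hk) a).eq]⟩

theorem cmod {y k : G} {w : W} {a : X} (h : Act j y w) (hk : k ∈ C[j.range]) (c : Commute y (j a * k)) :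
    w * a * w⁻¹ = a ∨ w * a * w⁻¹ = a * n := by
  have := H.wd (h.cK hk) hk (a := MulAut.conjNormal w a) (b := a) (by
    rw [← h, conj_mul, c.eq, mul_inv_cancel_right])
  rcases (H.cen _).1 (QuotientGroup.eq.1 this.symm) with e | e
  · exact .inl (congrArg Subtype.val (inv_mul_eq_one.1 e).symm)
  · exact .inr (congrArg Subtype.val (inv_mul_eq_iff_eq_mul.1 e))

theorem cm5 {y k : G} {w : W} {a : X} (h : Act j y w) (hk : k ∈ C[j.range]) (c : Commute y (j a * k)) (h5 : a ^ 5 = 1) :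
    Commute (a : W) w := by
  refine (mul_inv_eq_iff_eq_mul.1 ((H.cmod h hk c).resolve_right fun e => Invol.ne_one_of H.n2 ?_)).symm
  have := congrArg (· ^ 5) e
  simp only [conj_pow, ← coe_mul, ← coe_pow, (H.nc a).mul_pow, h5, coe_one, mul_one, one_mul, mul_inv_cancel] at this
  rw [show n ^ 5 = n by rw [pow_succ, show 4 = 2 * 2 from rfl, pow_mul, pow_two n, H.nn]; simp] at this
  exact Subtype.ext this.symm

theorem typI {y : G} (h : In j y) (h2 : y * y = 1) :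
    (∃ c, y = j c) ∨ ∃ c, ∃ k ∈ C[j.range], y = j c * k ∧ c * c = n ∧ k * k = j n := by
  obtain ⟨a, h⟩ := h
  obtain ⟨k, hk, rfl⟩ := h.dec
  refine (H.sq hk h2).imp (fun h => ?_) fun h => ⟨a, k, hk, rfl, h⟩
  rcases h.2 with rfl | rfl
  exacts [⟨a, mul_one _⟩, ⟨_, (map_mul j _ _).symm⟩]

variable (idx : X.index = 2) (a4 : ∀ (c : X) (w : W), c * c = n → w * c * w⁻¹ = c ∨ w * c * w⁻¹ = c * n → w ∈ X)
  (rt1 : ∃ c : X, c * c = n) (hA : ∀ g ∈ C1[j n], ∃ w, Act j g w)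
include a4 rt1

theorem act1 {w : W} (h : Act j 1 w) : w = 1 ∨ w = n := by
  have e : ∀ x : X, w * x * w⁻¹ = x := fun x => congrArg Subtype.val (H.inj ((h x).symm.trans (by simp)))
  obtain ⟨c, hc⟩ := rt1
  exact ((H.cen ⟨w, a4 c w hc (.inl (e c))⟩).1 (mem_center_iff.2 fun x => Subtype.ext
    (mul_inv_eq_iff_eq_mul.1 (e x)).symm)).imp (congrArg Subtype.val) (congrArg Subtype.val)

theorem in_iff {g : G} {w : W} (h : Act j g w) : In j g ↔ w ∈ X := ⟨fun ⟨a, k⟩ => by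
  rcases H.act1 a4 rt1 (inv_mul_cancel g ▸ k.inv.mul h) with e | e <;> rw [inv_mul_eq_iff_eq_mul.1 e]
  exacts [by simp, mul_mem a.2 n.2], fun m => ⟨⟨w, m⟩, h⟩⟩

include idx hA
theorem in_mul {g h : G} (hg : g ∈ C1[j n]) (hh : h ∈ C1[j n]) : In j (g * h) ↔ (In j g ↔ In j h) := by
  obtain ⟨v, a⟩ := hA g hg
  obtain ⟨w, b⟩ := hA h hh
  rw [H.in_iff a4 rt1 a, H.in_iff a4 rt1 b, H.in_iff a4 rt1 (a.mul b), mul_mem_iff_of_index_two idx]

theorem in_sq {g : G} (hg : g ∈ C1[j n]) : In j (g * g) := (H.in_mul idx a4 rt1 hA hg hg).2 Iff.rfl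

theorem five {g : G} (hg : g ∈ C1[j n]) (h5 : g ^ 5 = 1) : ∃ a : X, a ^ 5 = 1 ∧ ∃ k ∈ H.K0, g = j a * k := by
  obtain ⟨a, h⟩ := H.in_sq idx a4 rt1 hA (pow_mem hg 3)
  rw [← pow_add, pow_succ, h5, one_mul] at h
  obtain ⟨k, hk, rfl⟩ := h.dec
  have t : ∀ (a : X) (k : G), k ∈ C[j.range] → (j a * k) ^ 5 = 1 → a ^ 5 = 1 → k ∈ H.K0 := fun a k hk h5 e =>
    H.exK0.choose_spec.2.2.2 k hk (by rwa [(kc hk a).mul_pow, ← map_pow, e, map_one, one_mul] at h5)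
  have e := h5
  rw [(kc hk a).mul_pow, ← map_pow] at e
  rcases H.inter (eq_inv_of_mul_eq_one_left e ▸ inv_mem (pow_mem hk 5)) with e | e
  · exact ⟨a, e, k, t a k hk h5 e, rfl⟩
  · have q : j a * k = j (a * n) * (j n * k) := by rw [map_mul, mul_assoc, ← mul_assoc (j n), H.zz, one_mul]
    have e' : (a * n) ^ 5 = 1 := by
      rw [(H.nc a).mul_pow, e, ← pow_succ', show 5 + 1 = 2 * 3 from rfl, pow_mul, pow_two, H.nn, one_pow]
    exact ⟨a * n, e', _, t _ _ (mul_mem H.zK hk) (q ▸ h5) e', q⟩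

omit idx in
theorem vIn {g k : G} {c : X} (hk : k ∈ C[j.range]) (h : c * c = n) (hg : g ∈ C1[j n]) (e : Commute g (j c * k)) :
    In j g := by
  obtain ⟨w, a⟩ := hA g hg
  exact (H.in_iff a4 rt1 a).2 (a4 c w h (H.cmod a hk e))

theorem inL {a b : G} (ha : a ∈ C1[j n]) (hb : b ∈ C1[j n]) (h2 : ⁅a, b⁆ * ⁅a, b⁆ = 1) (ca : Commute a ⁅a, b⁆)
    (cb : Commute b ⁅a, b⁆) : ∃ c, ⁅a, b⁆ = j c := by
  have i : In j ⁅a, b⁆ := by
    obtain ⟨v, p⟩ := hA a ha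
    obtain ⟨w, q⟩ := hA b hb
    refine (H.in_iff a4 rt1 (((p.mul q).mul p.inv).mul q.inv)).2 ?_
    simp only [mul_mem_iff_of_index_two idx, inv_mem_iff]; tauto
  refine (H.typI i h2).resolve_right fun ⟨c, k, hk, e, c2, k2⟩ => ?_
  obtain ⟨a1, p⟩ := H.vIn a4 rt1 hA hk c2 ha (e ▸ ca)
  obtain ⟨b1, q⟩ := H.vIn a4 rt1 hA hk c2 hb (e ▸ cb)
  obtain ⟨k1, h1, rfl⟩ := p.dec
  obtain ⟨l1, h3, rfl⟩ := q.dec
  have m := H.exK0.choose_spec.2.2.1 k1 h1 l1 h3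
  have e' : ⁅j a1 * k1, j b1 * l1⁆ = j ⁅a1, b1⁆ * ⁅k1, l1⁆ := by
    simp only [commutatorElement_def, mul_inv_rev, ← map_inv]
    rw [← (kc (inv_mem h1) _).eq, ← (kc (inv_mem h3) _).eq, (kc h1 _).symm.mul_mul_mul_comm, ← map_mul, (kc (mul_mem h1 h3) _).symm.mul_mul_mul_comm, ← map_mul,
      (kc (mul_mem (mul_mem h1 h3) (inv_mem h1)) _).symm.mul_mul_mul_comm, ← map_mul]
  have q : k = j (c⁻¹ * ⁅a1, b1⁆) * ⁅k1, l1⁆ := by rw [map_mul, mul_assoc, ← e', e, map_inv, inv_mul_cancel_left]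
  refine H.K0z (k2 ▸ ?_)
  rcases H.inter (a := c⁻¹ * ⁅a1, b1⁆) (eq_mul_inv_of_mul_eq q.symm ▸ mul_mem hk (inv_mem (H.K0le m))) with r | r <;>
    rw [q, r]
  · rw [map_one, one_mul]; exact mul_mem m m
  · rw [(kc (H.K0le m) n).symm.mul_mul_mul_comm, H.zz, one_mul]; exact mul_mem m m

end SZ

end Cfsg.Agent.StdZ
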