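import Cfsg.Agent.StdZ.E8A

/-! Isolation of the centre of a standard subgroup with the involution data `Dat` of `W(E₈)'` (helper23). -/

set_option autoImplicit false
set_option linter.unusedSectionVars false

namespace Cfsg.Agent.StdZ

open Subgroup Cfsg.Agent.BG
open scoped commutatorElement

variable {G W : Type*} [Group G] [Finite G] [Group W] {X : Subgroup W} [X.Normal] {j : X →* G} {n : X} {f : W → ℕ}

structure Dat (X : Subgroup W) (n : X) (f : W → ℕ) : Prop where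
  idx : X.index = 2
  nc : ∀ w : W, Commute w n
  fc : ∀ g a, f (g * a * g⁻¹) = f a
  f1 : f 1 = 240
  fn : f n = 0
  U : ∀ a b : W, a * a = 1 → b * b = 1 → f a = f b → ∃ x : X, x * a * (x : W)⁻¹ = b
  VI : ∀ a : X, a * a = 1 → a = 1 ∨ a = n ∨ (f a, f (a * n)) ∈ [(60, 4), (4, 60), (24, 24), (8, 8)]
  VO : ∀ a ∉ X, a * a = 1 ∨ a * a = n → a * a = 1 ∧ (f a, f (a * n)) ∈ [(126, 2), (2, 126), (26, 6), (6, 26)]
  st : ∀ c : X, c * c = 1 ∨ c * c = n → ∃ a b : X, Commute a c ∧ Commute b c ∧ ⁅a, b⁆ = n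
  rt : ∀ c : X, c * c = 1 → ∃ a : X, Commute a c ∧ a * a = n
  a4 : ∀ (c : X) (w : W), c * c = n → w * c * w⁻¹ = c ∨ w * c * w⁻¹ = c * n → w ∈ X
  F1 : ∀ b : X, b * b = 1 → b ≠ 1 → b ≠ n → n ∉ F5 b
  N5 : ∀ w : W, w * w = 1 → f w ∈ [24, 8, 26, 6] → ∀ a : X, a ^ 5 = 1 → Commute (a : W) w → a = 1
  d2 : ∃ e : X, e * e = 1 ∧ f e = 4 ∧ e ∈ F5 e
  d1 : ∃ e x p q : X, e * e = 1 ∧ f e = 60 ∧ x * x = 1 ∧ f x = 60 ∧ Commute x e ∧ f (x * e) = 60 ∧ p ^ 5 = 1 ∧ q ^ 5 = 1 ∧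
    Commute p e ∧ Commute p x ∧ Commute q e ∧ Commute q x ∧ p * q * (p * q) = 1 ∧ p * q ≠ 1
  d34 : ∃ e c a b g : X, e * e = 1 ∧ f e = 24 ∧ c * c = 1 ∧ f c = 60 ∧ Commute c e ∧ Commute a e ∧ Commute b e ∧
    Commute a c ∧ Commute b c ∧ ⁅a, b⁆ = c ∧ Commute g e ∧ g * c = c * e * g
  ds : ∀ m ∈ [24, 8], ∃ (s : W) (c d : X), s * s = 1 ∧ f s = 26 ∧ c * c = 1 ∧ d * d = 1 ∧ Commute c d ∧ Commute (c : W) s ∧
    Commute (d : W) s ∧ f c = 60 ∧ f d = 60 ∧ f (c * d) = m ∧ f (s * c) = 26 ∧ f (s * d) = 26 ∧ f (s * (c * d)) = 26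
  dr : ∃ r : W, r * r = 1 ∧ f r = 126 ∧ ∀ m ∈ [24, 8], ∃ e c d : X, e * e = 1 ∧ f e = m ∧ e = c * c * (d * d) ∧
    Commute (c : W) r ∧ Commute (d : W) r ∧ f (r * e) = 6
  dy : ∀ m ∈ [24, 8], ∃ e y : X, e * e = 1 ∧ y * y = 1 ∧ f e = m ∧ f y = m ∧ Commute y e ∧ f (y * e) = 60

/-- the involutions of `X` of type `m` are fused to the centre. -/
def ZT (j : X →* G) (n : X) (f : W → ℕ) (m : ℕ) : Prop := ∀ c : X, c * c = 1 → f c = m → IsConj (j n) (j c)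

theorem csq {M : Type*} [Monoid M] {a b : M} (h : Commute a b) (ha : a * a = 1) (hb : b * b = 1) : a * b * (a * b) = 1 := by
  rw [h.symm.mul_mul_mul_comm, ha, hb, mul_one]

namespace SZ
variable (H : SZ j n) (D : Dat X n f) (hA : ∀ g ∈ C1[j n], ∃ w, Act j g w)
include D

theorem rt1 : ∃ c : X, c * c = n := (D.rt 1 (mul_one 1)).imp fun _ h => h.2
theorem zt {c d : X} (hc : c * c = 1) (hd : d * d = 1) (e : f c = f d) : IsConj (j c) (j d) := by
  obtain ⟨x, h⟩ := D.U c d (congrArg Subtype.val hc) (congrArg Subtype.val hd) e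
  exact j.map_isConj (isConj_iff.2 ⟨x, Subtype.ext h⟩)
theorem nZT {m : ℕ} (h : ¬ZT j n f m) {c : X} (hc : c * c = 1) (e : f c = m) : ¬IsConj (j n) (j c) :=
  fun k => h fun _ hd e' => k.trans (zt D hc hd (e.trans e'.symm))
theorem vi {c : X} (hc : c * c = 1) {m : ℕ} (e : f c = m) (h : m ∈ [60, 24, 8]) :
    f (c * n) = if m = 60 then 4 else m := by
  rcases D.VI c hc with rfl | rfl | k
  · rw [coe_one, D.f1] at e; subst e; simp at h
  · rw [D.fn] at e; subst e; simp at h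
  · simp only [e, List.mem_cons, Prod.mk.injEq, List.not_mem_nil, or_false] at k h
    split_ifs <;> omega

include H hA
theorem sqn' {c : X} (hc : c * c = 1) : c * n * (c * n) = 1 := csq (H.nc c) hc H.nn

theorem P1 {u : G} {φ : MulAut G} (h2 : u * u = 1) (hi : In j u) (e : φ u = j n) : ∃ b, φ (j n) = j b := by
  obtain ⟨c, h⟩ := hi
  obtain ⟨k, hk, rfl⟩ := h.dec
  obtain ⟨a, b, ca, cb, q⟩ := D.st c ((H.sq hk h2).imp And.left And.left)
  have m : ∀ a, Commute a c → φ (j a) ∈ C1[j n] := fun a h => mM e ((h.map j).mul_right (kc hk a))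
  have r : φ (j n) = ⁅φ (j a), φ (j b)⁆ := by rw [← q, map_commutatorElement, map_commutatorElement]
  rw [r]
  exact H.inL D.idx D.a4 (rt1 D) hA (m a ca) (m b cb) (by rw [← r, ← map_mul, H.zz, map_one]) (r ▸ (H.jz a).map φ)
    (r ▸ (H.jz b).map φ)

theorem P3 {u : G} {φ : MulAut G} (e : φ u = j n) (hi : In j (φ (j n))) : ∃ c, u = j c := by
  obtain ⟨c, h⟩ := H.P1 D hA (φ := φ.symm) (by rw [← map_mul, H.zz, map_one]) hi (by simp)
  exact ⟨c, by rw [← h, ← e]; simp⟩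

theorem P2 {u : G} (hz : IsConj (j n) u) (hi : In j u) : ∃ c, u = j c := by
  obtain ⟨φ, -, e⟩ := exφ hz
  obtain ⟨b, h⟩ := H.P1 D hA (H.zsq hz) hi e
  exact H.P3 D hA e (h ▸ in_j b)

theorem pull {φ : MulAut G} {y : G} {c : X} (e : φ y = j c) (h : y * y = 1) : c * c = 1 :=
  H.inj (by rw [map_mul, ← e, ← map_mul, h, map_one, map_one])

theorem no4 : ¬ZT j n f 4 := fun h => by
  obtain ⟨e, e2, fe, he⟩ := D.d2
  obtain ⟨φ, -, q⟩ := exφ (h e e2 fe)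
  obtain ⟨b, hb⟩ := H.P1 D hA (by rw [← map_mul, e2, map_one]) (in_j e) q
  have l : F5 e ≤ (H.DD (F5 b)).comap (φ.toMonoidHom.comp j) := (closure_le _).2 fun a ⟨a5, c⟩ => by
    obtain ⟨a', h5, k, hk, r⟩ := H.five D.idx D.a4 (rt1 D) hA (mM q (c.map j)) (by rw [← map_pow, ← map_pow, a5]; simp)
    exact ⟨a', subset_closure ⟨h5, Subtype.ext (H.cm5 (act_j b) (H.K0le hk) (by
      rw [← r, ← hb]; exact (H.jz a).symm.map φ) h5)⟩, k, hk, r⟩
  obtain ⟨a, ha, k, hk, r⟩ := l he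
  have r' : j (a⁻¹ * n) = k := by rw [map_mul, map_inv, ← q, inv_mul_eq_iff_eq_mul]; exact r
  rcases H.inter (r' ▸ H.K0le hk) with t | t
  · refine D.F1 b (H.pull D hA hb H.zz) (fun t => H.z1 (by simpa [t] using hb)) (fun t => ?_) (inv_mul_eq_one.1 t ▸ ha)
    rw [t] at hb
    rw [show e = n from H.inj (φ.injective (q.trans hb.symm)), D.fn] at fe; omega
  · rw [t] at r'; exact H.K0z (r'.symm ▸ hk)

theorem outer {y : G} {w : W} (h : Act j y w) (h2 : y * y = 1) (hw : w ∉ X) :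
    w * w = 1 ∧ (f w, f (w * n)) ∈ [(126, 2), (2, 126), (26, 6), (6, 26)] :=
  D.VO w hw (H.act1 D.a4 (rt1 D) (h2 ▸ h.mul h))

theorem no60 : ¬ZT j n f 60 := fun h => by
  obtain ⟨e, x, p, q, e2, fe, x2, fx, xe, fxe, p5, q5, pe, px, qe, qx, pq, pq1⟩ := D.d1
  obtain ⟨φ, hφ, r⟩ := exφ (h e e2 fe)
  have n4 := @nZT _ _ _ _ _ _ _ j _ _ D _ (H.no4 D hA)
  have xe2 := csq xe x2 e2
  obtain ⟨a, a5, a1, k, hk, g, cx, ra⟩ : ∃ a : X, a ^ 5 = 1 ∧ a ≠ 1 ∧ ∃ k ∈ C[j.range], ∃ g, Commute g x ∧ φ (j g) = j a * k := by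
    have t := fun (p : X) (p5 : p ^ 5 = 1) (pe : Commute p e) => H.five D.idx D.a4 (rt1 D) hA (mM r (pe.map j))
      (by rw [← map_pow, ← map_pow, p5]; simp)
    obtain ⟨a, a5, k, hk, ra⟩ := t p p5 pe
    obtain ⟨b, b5, l, hl, rb⟩ := t q q5 qe
    by_contra c
    obtain rfl : a = 1 := by_contra fun a1 => c ⟨a, a5, a1, k, H.K0le hk, p, px, ra⟩
    obtain rfl : b = 1 := by_contra fun a1 => c ⟨b, b5, a1, l, H.K0le hl, q, qx, rb⟩
    have m : φ (j (p * q)) ∈ H.K0 := by rw [map_mul, map_mul, ra, rb]; simpa using mul_mem hk hl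
    rcases H.uniq (H.K0le m) (by rw [← map_mul, ← map_mul, pq]; simp) with t | t
    · exact pq1 (H.inj (φ.injective (t.trans (by simp))))
    · exact H.K0z (t ▸ m)
  have n5 : ∀ w, Act j (φ (j x)) w ∨ Act j (φ (j (x * n))) w → w * w = 1 → f w ∉ [24, 8, 26, 6] := fun w hw w2 m =>
    a1 (D.N5 w w2 m a a5 (hw.elim (fun hw => H.cm5 hw hk (ra ▸ (cx.symm.map j).map φ) a5) fun hw =>
      H.cm5 hw hk (ra ▸ ((cx.symm.mul_left (H.nc g).symm).map j).map φ) a5))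
  have z1 : IsConj (j n) (φ (j x)) := (h x x2 fx).trans (hφ _)
  have z2 : IsConj (j n) (φ (j x) * j n) := by
    have := (h _ xe2 fxe).trans (hφ _); rwa [map_mul, map_mul, r] at this
  obtain ⟨w, hw⟩ := hA _ (mM r (xe.map j))
  by_cases i : w ∈ X
  · obtain ⟨c, hc⟩ := H.P2 D hA z1 ⟨⟨w, i⟩, hw⟩
    have c2 := H.pull D hA hc (by rw [← map_mul, x2, map_one])
    rw [hc] at z1 z2
    rcases D.VI c c2 with rfl | rfl | t
    · exact H.zne z1 (map_one j)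
    · exact H.zne z2 H.zz
    · simp only [List.mem_cons, Prod.mk.injEq, List.not_mem_nil, or_false] at t
      rcases t with t | t | t | t
      · exact n4 (H.sqn' D hA c2) t.2 (by rwa [map_mul])
      · exact n4 c2 t.1 z1
      all_goals exact n5 c (.inl (hc ▸ act_j c)) (congrArg Subtype.val c2) (by simp [t.1])
  · obtain ⟨b, hb⟩ := H.P1 D hA (by rw [← map_mul, e2, map_one]) (in_j e) r
    have hw' : Act j (φ (j (x * n))) (w * b) := by rw [map_mul, map_mul, hb]; exact hw.mul (act_j b)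
    obtain ⟨w2, t⟩ := H.outer D hA hw (H.zsq z1) i
    obtain ⟨w2', t'⟩ := H.outer D hA hw' (by rw [← map_mul, ← map_mul, H.sqn' D hA x2]; simp) (by
      rwa [X.mul_mem_cancel_right b.2])
    have m := n5 w (.inl hw) w2
    have m' := n5 _ (.inr hw') w2'
    simp only [List.mem_cons, Prod.mk.injEq, List.not_mem_nil, or_false] at t t' m m'
    have k : ∀ c d : X, φ (j d) = φ (j x) * j c → d * d = 1 → f d = 4 → w * c * (w * c) = 1 → f w ≠ f (w * c) :=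
      fun c d hd d2 fd h2 e => by
        obtain ⟨g, hg⟩ := D.U _ _ w2 h2 e
        exact n4 d2 fd ((z1.trans (hw.tc hg)).trans (hd ▸ (hφ _).symm))
    refine k b _ (by rw [map_mul, map_mul, hb]) (H.sqn' D hA x2) (vi D x2 fx (by simp)) w2' (by_contra fun ne =>
      k (b * n) (x * e * n) ?_ (H.sqn' D hA xe2) (vi D xe2 fxe (by simp)) ?_ ?_)
    · simp only [map_mul, hb, r, mul_assoc, (H.jz b).eq]
    · rw [coe_mul, ← mul_assoc w]; exact csq (D.nc _) w2' (congrArg Subtype.val H.nn)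
    · rw [coe_mul, ← mul_assoc]; omega

theorem NN {u y : G} {φ : MulAut G} (hφ : ∀ y, IsConj y (φ y)) (e : φ u = j n) (hy : IsConj (j n) y) (ne : y ≠ u)
    (i : In j (φ y)) : IsConj (j n) (y * u) := by
  have z := hy.trans (hφ y)
  obtain ⟨c, hc⟩ := H.P2 D hA z i
  have c2 := H.pull D hA hc (H.zsq hy)
  rw [hc] at z
  refine IsConj.trans ?_ (hφ _).symm
  rw [map_mul, e, hc, ← map_mul]
  rcases D.VI c c2 with rfl | rfl | t
  · exact absurd (map_one j) (H.zne z)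
  · exact absurd (φ.injective (hc.trans e.symm)) ne
  · simp only [List.mem_cons, Prod.mk.injEq, List.not_mem_nil, or_false] at t
    rcases t with t | t | t | t
    · exact absurd z (nZT D (H.no60 D hA) c2 t.1)
    · exact absurd z (nZT D (H.no4 D hA) c2 t.1)
    all_goals exact z.trans (zt D c2 (H.sqn' D hA c2) (t.1.trans t.2.symm))

theorem B34 : ∃ m ∈ [24, 8], ¬ZT j n f m := by_contra fun h => by
  have h : ∀ m ∈ [24, 8], ZT j n f m := fun m hm => by_contra fun k => h ⟨m, hm, k⟩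
  obtain ⟨e, c, a, b, g, e2, fe, c2, fc, ce, ae, be, ac, bc, q, ge, hg⟩ := D.d34
  obtain ⟨φ, hφ, r⟩ := exφ (h 24 (by simp) e e2 fe)
  have s : φ (j c) = ⁅φ (j a), φ (j b)⁆ := by rw [← q, map_commutatorElement, map_commutatorElement]
  obtain ⟨d, hd⟩ := s ▸ H.inL D.idx D.a4 (rt1 D) hA (mM r (ae.map j)) (mM r (be.map j))
    (by rw [← s, ← map_mul, ← map_mul, c2]; simp) (s ▸ (ac.map j).map φ) (s ▸ (bc.map j).map φ)
  have d2 := H.pull D hA hd (by rw [← map_mul, c2, map_one])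
  have nz : ¬IsConj (j n) (j d) := fun z => nZT D (H.no60 D hA) c2 fc (z.trans (hd ▸ (hφ _).symm))
  obtain ⟨w, hw⟩ := hA _ (mM r (ge.map j))
  have t : f d = f (d * n) := by
    rw [← D.fc w, ← coe_mul, ← H.inj (a₁ := MulAut.conjNormal w d) (a₂ := d * n) (by
      rw [← hw, map_mul, ← hd, ← r, mul_inv_eq_iff_eq_mul]; simp only [← map_mul, hg])]; rfl
  rcases D.VI d d2 with rfl | rfl | k
  · rw [H.inj (φ.injective (hd.trans (by simp)) : j c = j 1), coe_one, D.f1] at fc; omega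
  · exact nz (IsConj.refl _)
  · simp only [List.mem_cons, Prod.mk.injEq, List.not_mem_nil, or_false] at k
    exact nz (h (f d) (by simp; omega) d d2 rfl)

theorem wlog {t : G} {w s : W} (hz : IsConj (j n) t) (hM : t ∈ C1[j n]) (h : Act j t w) (hw : w ∉ X) (s2 : s * s = 1)
    (e : f w = f s ∨ f (w * n) = f s) : ∃ t, IsConj (j n) t ∧ t ∈ C1[j n] ∧ Act j t s ∧ ¬In j t := by
  have w2 := (H.outer D hA h (H.zsq hz) hw).1
  obtain ⟨v, hv, v2, fv⟩ : ∃ v, Act j t v ∧ v * v = 1 ∧ f v = f s := e.elim (fun e => ⟨w, h, w2, e⟩) fun e =>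
    ⟨w * n, fun x => by
      have := h.mul (act_j n) x
      rwa [mul_assoc t, ← (H.jz x).eq, mul_inv_rev, ← mul_assoc, mul_assoc t, mul_inv_cancel_right] at this,
      csq (D.nc _) w2 (congrArg Subtype.val H.nn), e⟩
  obtain ⟨x, rfl⟩ := D.U _ _ v2 s2 fv
  have a := ((act_j x).mul hv).mul (act_j x).inv
  refine ⟨_, hz.trans (isConj_iff.2 ⟨j x, rfl⟩), mul_mem (mul_mem (H.jM x) hM) (inv_mem (H.jM x)), a, ?_⟩
  rw [H.in_iff D.a4 (rt1 D) a, X.mul_mem_cancel_right (inv_mem x.2), X.mul_mem_cancel_left x.2,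
    ← H.in_iff D.a4 (rt1 D) hv, H.in_iff D.a4 (rt1 D) h]
  exact hw

theorem OS {t : G} {w : W} (hz : IsConj (j n) t) (hM : t ∈ C1[j n]) (h : Act j t w) (hw : w ∉ X) :
    f w = 126 ∨ f (w * n) = 126 := by_contra fun ne => by
  have k := (H.outer D hA h (H.zsq hz) hw).2
  simp only [List.mem_cons, Prod.mk.injEq, List.not_mem_nil, or_false] at k
  obtain ⟨m, hm, nm⟩ := H.B34 D hA
  obtain ⟨s, c, d, s2, fs, c2, d2, cd, cs, ds, fc, fd, fcd, f1, f2, f3⟩ := D.ds m hm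
  obtain ⟨t, hz, hM, h, o⟩ := H.wlog D hA hz hM h hw s2 (by omega)
  obtain ⟨φ, hφ, r⟩ := exφ hz
  have t2 := H.zsq hz
  have a : ∀ c : X, c * c = 1 → Commute (c : W) s → f (s * c) = 26 → ¬IsConj (j n) (j c) → c ≠ 1 → ¬In j (φ (j c)) :=
    fun c c2 cs fc nz c1 i => by
      obtain ⟨x, hx⟩ := D.U s (s * c) s2 (csq cs.symm s2 (congrArg Subtype.val c2)) (fs.trans fc.symm)
      have := H.NN D hA hφ r (hz.trans (h.tc hx)) (fun e => c1 (H.inj (by simpa using e))) (by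
        rw [map_mul, r, H.in_mul D.idx D.a4 (rt1 D) hA (H.jM n) (mM r (h.comm cs))]; exact iff_of_true (in_j n) i)
      rw [mul_assoc, (h.comm cs).eq, ← mul_assoc, t2, one_mul] at this
      exact nz this
  have n1 : ∀ c : X, f c ∈ [60, 24, 8] → c ≠ 1 := by
    rintro _ h rfl; rw [coe_one, D.f1] at h; simp at h
  have a1 := a c c2 cs f1 (nZT D (H.no60 D hA) c2 fc) (n1 c (by simp [fc]))
  have a2 := a d d2 ds f2 (nZT D (H.no60 D hA) d2 fd) (n1 d (by simp [fd]))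
  refine a (c * d) (csq cd c2 d2) (cs.mul_left ds) f3 (nZT D nm (csq cd c2 d2) fcd) (n1 _ (List.mem_cons_of_mem _ (fcd ▸ hm))) ?_
  rw [map_mul, map_mul, H.in_mul D.idx D.a4 (rt1 D) hA (mM r (h.comm cs)) (mM r (h.comm ds))]
  exact iff_of_false a1 a2

theorem OR {t : G} (hz : IsConj (j n) t) (hM : t ∈ C1[j n]) (o : ¬In j t) : ∃ (t : G) (r : W) (φ : MulAut G),
    IsConj (j n) t ∧ t ∈ C1[j n] ∧ Act j t r ∧ ¬In j t ∧ (∀ y, IsConj y (φ y)) ∧ φ t = j n ∧ r * r = 1 ∧ ∀ m ∈ [24, 8],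
      ∃ e : X, e * e = 1 ∧ f e = m ∧ Commute (e : W) r ∧ f (r * e) = 6 ∧ In j (φ (j e)) := by
  obtain ⟨w, h⟩ := hA t hM
  have hw := mt (H.in_iff D.a4 (rt1 D) h).2 o
  obtain ⟨r, r2, fr, k⟩ := D.dr
  obtain ⟨t, hz, hM, h, o⟩ := H.wlog D hA hz hM h hw r2 (fr ▸ H.OS D hA hz hM h hw)
  obtain ⟨φ, hφ, q⟩ := exφ hz
  refine ⟨t, r, φ, hz, hM, h, o, hφ, q, r2, fun m hm => ?_⟩
  obtain ⟨e, c, d, e2, fe, rfl, cr, dr, f6⟩ := k m hm
  refine ⟨_, e2, fe, (cr.mul_left cr).mul_left (dr.mul_left dr), f6, ?_⟩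
  have mc := mM q (h.comm cr)
  have md := mM q (h.comm dr)
  simp only [map_mul]
  rw [H.in_mul D.idx D.a4 (rt1 D) hA (mul_mem mc mc) (mul_mem md md)]
  exact iff_of_true (H.in_sq D.idx D.a4 (rt1 D) hA mc) (H.in_sq D.idx D.a4 (rt1 D) hA md)

theorem no34 {m : ℕ} (hm : m ∈ [24, 8]) : ¬ZT j n f m := fun h => by
  obtain ⟨e, y, e2, y2, fe, fy, c, f6⟩ := D.dy m hm
  obtain ⟨φ, hφ, q⟩ := exφ (h e e2 fe)
  by_cases i : In j (φ (j y))
  · refine nZT D (H.no60 D hA) (csq c y2 e2) f6 (map_mul j y e ▸ H.NN D hA hφ q (h y y2 fy) (fun k => ?_) i)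
    rw [H.inj k, ← coe_mul, e2, coe_one, D.f1] at f6; omega
  · obtain ⟨t, r, φ, hz, hM, a, o, hφ, q, r2, k⟩ := H.OR D hA ((h y y2 fy).trans (hφ _)) (mM q (c.map j)) i
    obtain ⟨e, e2, fe, c, f6, i⟩ := k m hm
    have z := H.NN D hA hφ q (h e e2 fe) (fun k => o (k ▸ in_j e)) i
    have a' := (act_j e).mul a
    have hw : (e : W) * r ∉ X := by rw [X.mul_mem_cancel_left e.2]; exact mt (H.in_iff D.a4 (rt1 D) a).2 o
    have k1 := H.OS D hA z (mul_mem (H.jM e) hM) a' hw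
    have k2 := (H.outer D hA a' (H.zsq z) hw).2
    simp only [List.mem_cons, Prod.mk.injEq, List.not_mem_nil, or_false] at k2
    rw [← c.eq] at f6; omega

theorem ZL {y : G} (hz : IsConj (j n) y) (i : In j y) : y = j n := by
  obtain ⟨c, rfl⟩ := H.P2 D hA hz i
  have c2 := H.pull D hA (φ := 1) rfl (H.zsq hz)
  rcases D.VI c c2 with rfl | rfl | t
  · exact absurd (map_one j) (H.zne hz)
  · rfl
  · simp only [List.mem_cons, Prod.mk.injEq, List.not_mem_nil, or_false] at t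
    rcases t with t | t | t | t
    exacts [absurd hz (nZT D (H.no60 D hA) c2 t.1), absurd hz (nZT D (H.no4 D hA) c2 t.1),
      absurd hz (nZT D (H.no34 D hA (by simp)) c2 t.1), absurd hz (nZT D (H.no34 D hA (by simp)) c2 t.1)]

theorem LC {c d : X} (c2 : c * c = 1) (d2 : d * d = 1) (h : IsConj (j c) (j d)) : f c = f d := by
  have : Fact (Nat.Prime 2) := ⟨Nat.prime_two⟩
  obtain ⟨h, e⟩ := isConj_iff.1 h
  obtain ⟨a, ca, a2⟩ := D.rt d d2
  obtain ⟨b, cb, b2⟩ := D.rt c c2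
  have fix : ∀ (g : G) (a : X), a * a = n → g * j a * g⁻¹ ∈ C1[j n] → g ∈ C1[j n] := fun g a a2 m => by
    have := H.in_sq D.idx D.a4 (rt1 D) hA m
    rw [conj_mul, ← map_mul, a2] at this
    exact mem_cent1.2 (mul_inv_eq_iff_eq_mul.1 (H.ZL D hA (isConj_iff.2 ⟨g, rfl⟩) this))
  obtain ⟨T, hT, l⟩ := Sylow_superset (p := 2) (Q := zpowers (j a)) (M := C1[j d] ⊓ C1[j n])
    (zpowers_le.2 ⟨mem_cent1.2 (ca.map j), H.jM a⟩) (pz (by rw [← map_mul, a2, H.zz]))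
  obtain ⟨P, hP, l'⟩ := Sylow_superset (hT.le.trans inf_le_left) hT.pg
  obtain rfl : T = P := nilpotent_sub_norm (pgroup_nil hP.pg) l' fun m hm => by
    have := Hall_max hT (K := P ⊓ C1[j n]) (le_inf l' (hT.le.trans inf_le_right)) (inf_le_inf_right _ hP.le)
      (hP.pg.to_le inf_le_left).pi
    exact this ▸ (⟨hm.1, fix m a a2 (hT.le ((mem_normalizer_iff.1 hm.2 _).1 (l (mem_zpowers _)))).2⟩ : m ∈ P ⊓ C1[j n])
  obtain ⟨g, hg, k⟩ := Sylow_Jsub hP (Q := zpowers (h * j b * h⁻¹)) (zpowers_le.2 (mem_cent1.2 (by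
    rw [← e, conj_mul, conj_mul, (cb.map j).eq]))) (pz (by simp only [conj_mul, ← map_mul, b2, H.nn]; simp))
  obtain ⟨w, hw⟩ := hA _ (fix (g * h) b b2 (by
    have := (hT.le (k (conj_mem_cj g (mem_zpowers _)))).2
    simpa [mul_assoc] using this))
  rw [← D.fc w, ← H.inj (a₁ := MulAut.conjNormal w c) (a₂ := d) (by
    rw [← hw, show g * h * j c * (g * h)⁻¹ = g * (h * j c * h⁻¹) * g⁻¹ by group, e, mem_cent1.1 hg, mul_inv_cancel_right])]
  rfl

theorem isolE (g : G) (c : Commute (j n) (g * j n * g⁻¹)) : g * j n * g⁻¹ = j n := by_contra fun ne => by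
  have z : IsConj (j n) (g * j n * g⁻¹) := isConj_iff.2 ⟨g, rfl⟩
  obtain ⟨t, r, φ, hz, hM, a, o, hφ, q, r2, k⟩ := H.OR D hA z (mem_cent1.2 c.symm) fun i => ne (H.ZL D hA z i)
  have p : ∀ m ∈ [24, 8], ∃ e c : X, e * e = 1 ∧ Commute (e : W) r ∧ f (r * e) = 6 ∧ c * c = 1 ∧ f c = m ∧
      φ (t * j e) = j c := fun m hm => by
    obtain ⟨e, e2, fe, c, f6, i⟩ := k m hm
    obtain ⟨d, hd⟩ := (H.typI i (by rw [← map_mul, ← map_mul, e2]; simp)).resolve_right fun ⟨d, k, hk, s, d2, _⟩ => by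
      obtain ⟨c, rfl⟩ := H.P3 D hA q (H.vIn D.a4 (rt1 D) hA hk d2 (mM q (mem_cent1.1 hM).symm) (s ▸ (H.jz e).symm.map φ))
      exact o (in_j c)
    have d2 := H.pull D hA hd (by rw [← map_mul, e2, map_one])
    have fd := H.LC D hA e2 d2 (hd ▸ hφ _)
    refine ⟨e, d * n, e2, c, f6, H.sqn' D hA d2, ?_, by rw [map_mul, q, hd, map_mul, (H.jz d).eq]⟩
    rw [coe_mul, vi D d2 (fd.symm.trans fe) (List.mem_cons_of_mem _ hm), if_neg]
    rintro rfl; simp at hm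
  obtain ⟨e, c, e2, ce, fe, c2, fc, s⟩ := p 24 (by simp)
  obtain ⟨e', c', e2', ce', fe', c2', fc', s'⟩ := p 8 (by simp)
  obtain ⟨x, hx⟩ := D.U _ _ (csq ce.symm r2 (congrArg Subtype.val e2)) (csq ce'.symm r2 (congrArg Subtype.val e2'))
    (fe.trans fe'.symm)
  have := (a.mul (act_j e)).tc (x := x) (c := e⁻¹ * e') (by rw [hx]; simp [mul_assoc])
  rw [map_mul, map_inv, mul_assoc, mul_inv_cancel_left] at this
  have := H.LC D hA c2 c2' (s ▸ s' ▸ (hφ _).symm.trans (this.trans (hφ _)))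
  omega

end SZ

end Cfsg.Agent.StdZ
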