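import Cfsg.Agent.StdZ.E8M
import Cfsg.Agent.StdZ.E8B

/-! Involutions and elements of order 5 of the model of `W(E₈)`: classes (`cls`), fixed roots (`f`) (helper23). -/

set_option autoImplicit false
set_option maxRecDepth 100000

namespace Cfsg.Agent.StdZ.E8

open Subgroup Cfsg.Agent.Comp Cfsg.Agent.Known Cfsg.Agent.Known.O82T
open scoped commutatorElement

theorem rX' : r ∉ X := fun h => kap ⟨r, h⟩ rfl
theorem idx : X.index = 2 := index_eq_two_iff_exists_notMem_and.2 ⟨r, rX', two⟩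
theorem parW {g : ℕ → Wg} {p : ℕ → Bool} (h : ∀ i, g i ∈ X ↔ p i = false) (u : List ℕ) : W g u ∈ X ↔ par p u = false := by
  induction u with
  | nil => exact iff_of_true (one_mem _) rfl
  | cons c u ih =>
    rw [W_cons, mul_mem_iff_of_index_two idx, ih, h, show par p (c :: u) = xor (p c) (par p u) from rfl]
    cases p c <;> cases par p u <;> simp
theorem par3 (i : ℕ) : d i ∈ X ↔ p3 i = false := parW (fun i => parW (fun i => by
  rw [p1, ← Bool.not_eq_true, nbeq]
  refine ⟨by rintro h rfl; exact rX' h, fun h => (lt_or_ge i 10).elim (fun c => subset_closure ⟨i, c, rfl⟩) fun c => ?_⟩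
  exact (show w i = 1 from Subtype.ext (Equiv.ext fun a => a1_hi (by omega))) ▸ one_mem X) _) _
noncomputable def DX (k : ℕ) (h : p3 k = false := by decide +kernel) : X := ⟨d k, (par3 k).2 h⟩

theorem card_W : Nat.card (⊤ : Subgroup Wg) = 696729600 := by
  rw [card_top, ← X.index_mul_card, idx, ← π.ker.index_mul_card, index_ker, MonoidHom.range_eq_top.2 π_surj, card_top,
    O82P.card, card_ker]

noncomputable def el (c : ℕ) : Wg := W x (wd 14 0 c)
noncomputable def T : Subgroup Wg := closure (x '' {i | i < 14})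
def Lt (u : List ℕ) : Prop := ∀ l ∈ u, l < 14
theorem rl : D.Rel x := D.rel_of_eq (fun _ _ => E2) (allLt_iff.1 k2) rfl
theorem WT_mem {u : List ℕ} (h : Lt u) : W x u ∈ T := W_mem x fun l hl => subset_closure ⟨l, h l hl, rfl⟩
theorem Lwd (c : ℕ) : Lt (wd 14 0 c) := wd_lt 14 0 c
theorem Lt.app {u v : List ℕ} (h : Lt u) (k : Lt v) : Lt (appendL u v) := fun l hl => by
  rw [appendL_eq, List.mem_append] at hl; exact hl.elim (h l) (k l)
theorem isA : IsAct (fun i g => g = W x (nthL [] sw i)) (PtN 240) fun i => actW a2 (nthL [] sw i) := h2.words sw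
theorem cIn : CodesIn (fun i g => g = W x (nthL [] sw i)) (List.range (lenL sw)) T := fun i _ => ⟨_, by
  refine WT_mem fun l hl => ?_
  rcases nthL_mem_or [] sw i with e | e
  · exact nblt.1 (allL_iff.1 (allL_iff.1 (show allL sw (fun w => allL w fun l => Nat.blt l 14) = true by decide +kernel) _ e) l hl)
  · rw [e] at hl; exact absurd hl List.not_mem_nil, rfl⟩
theorem hB : ∀ b ∈ [16, 48, 18], ∃ p, PtN 240 b p := exists_PtN (by decide)
theorem T_le : Nat.card T ≤ 16384 := (D.card_closure_le (by decide +kernel) rl.pow rl.conj).2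
theorem card_T : Nat.card T = 2 ^ 14 :=
  T_le.antisymm ((nble.1 k3).trans (chainL_le_card isA (isCanon_PtN _).func (isCanon_PtN _).canon _ hB _ _ cIn))
theorem e0_iff {u v : List ℕ} (hu : Lt u) (hv : Lt v) : e0 u v = true ↔ W x u = W x v := by
  rw [e0, eqB, allL_iff]
  refine ⟨fun h => ?_, fun h b hb => nbeq.2 ?_⟩
  · rw [← inv_mul_eq_one]
    refine congrArg Subtype.val (isBase_of_chainL isA (isCanon_PtN _) hB cIn (T_le.trans (nble.1 k3))
      ⟨_, mul_mem (inv_mem (WT_mem hu)) (WT_mem hv)⟩ fun b hb p hp => ?_)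
    show ((W x u)⁻¹ * W x v) • p = p
    rw [mul_smul, inv_smul_eq_iff, ← (actW_spec h2 u hp).1, ← (actW_spec h2 v hp).1, nbeq.1 (h b hb)]
  · obtain ⟨p, hp⟩ := hB b hb
    rw [(actW_spec h2 u hp).1, (actW_spec h2 v hp).1, h]
theorem xn : x 13 = n := by
  have := E1 (u := nthL [] xw 13) (v := nw) (by decide +kernel)
  exact this
theorem dn : d 1 = n := (mul_one _).trans xn

theorem cls {a : Wg} (h : a * a = 1 ∨ a * a = n) : ∃ k < 11, IsConj a (d k) := by
  obtain ⟨g, -, m⟩ := exists_conj_mem_sylow (K := ⊤) (P := T) (j := 2) Nat.prime_two le_top card_T card_W (by decide)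
    (mem_top a) (by rw [pow_two, pow_mul, pow_two a, pow_two]; rcases h with h | h <;> rw [h]; exacts [mul_one 1, nn'])
  obtain ⟨c, hc, e⟩ := nf (D := D) (by decide +kernel) rfl rl 14 0 rfl _ (by simp only [zero_le, true_and]; exact m)
  have k := allB_spec k5 hc
  have s : ∀ {u}, Lt u → (sqc u c = true ↔ g * (a * a) * g⁻¹ = W x u) := fun hu => by
    rw [sqc, forceL_eq, e0_iff ((Lwd c).app (Lwd c)) hu, appendL_eq, W_append, ← e, conj_mul]
  have q : bor (sqc [] c) (sqc [13] c) = true := by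
    rw [bor_eq, Bool.or_eq_true, s (by simp [Lt]), s (by simp [Lt])]
    exact h.imp (fun h => by simp [h]) fun h => by rw [h, (nc g).eq]; simp [xn]
  simp only [chA, q, bor_eq, force_eq, band_eq, Bool.not_true, Bool.false_or, Bool.and_eq_true, anyL_iff, nbeq] at k
  obtain ⟨k, t, ht, f⟩ := k
  rw [← f, e0_iff ((Lwd _).app (Lwd _)) ((Lwd _).app (Lwd _)), appendL_eq, appendL_eq, W_append, W_append, ← e,
    ← mul_inv_eq_iff_eq_mul] at k
  have k' := allL_iff.1 k4 t ht
  rw [band_eq, Bool.and_eq_true, nblt] at k'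
  have l := E2 k'.2
  rw [appendL_eq, appendL_eq, W_append, W_append, ← k, ← mul_inv_eq_iff_eq_mul] at l
  exact ⟨_, k'.1, (isConj_iff.2 ⟨g, rfl⟩).trans ((isConj_iff.2 ⟨_, rfl⟩).trans (isConj_iff.2 ⟨_, l⟩))⟩

noncomputable def f (g : Wg) : ℕ := ((Finset.range 240).filter fun p => g • p = p).card
theorem fc (g a : Wg) : f (g * a * g⁻¹) = f a := Finset.card_nbij' (g⁻¹ • ·) (g • ·)
  (fun p => by simpa [mul_smul, eq_inv_smul_iff] using fun h k => ⟨lo _ h, k⟩)
  (fun p => by simpa [mul_smul] using fun h k => ⟨lo _ h, k⟩) (fun p _ => by simp) fun p _ => by simp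
theorem fW (u : List ℕ) : f (W d u) = fx u := by
  rw [fx, countLt_eq, f]
  exact congrArg _ (Finset.filter_congr fun p hp => by
    rw [nbeq, (actW_spec h3 u (show PtN 240 p p from ⟨rfl, Finset.mem_range.1 hp⟩)).1])

theorem rel_inv (g : Wg) : ∀ a < 240, ∀ b < 240, rel (g • a) (g • b) = rel a b := ind (K :=
  { carrier := {g | ∀ a < 240, ∀ b < 240, rel (g • a) (g • b) = rel a b}
    one_mem' := by simp
    mul_mem' := fun p q a ha b hb => by rw [mul_smul, mul_smul, p _ (lo _ ha) _ (lo _ hb), q a ha b hb]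
    inv_mem' := fun {g} p a ha b hb => by rw [← p _ (lo _ ha) _ (lo _ hb), smul_inv_smul, smul_inv_smul] })
  (fun i hi a ha b hb => by
    have := allLt_iff.1 (allLt_iff.1 k6 i hi) a ha
    rw [force_eq] at this
    exact nbeq.1 (allLt_iff.1 this b hb)) g

variable {g : Wg} (h5 : g ^ 5 = 1)
include h5
theorem no5_spec {S : List ℕ} (h : no5 S = true) (l : ∀ p ∈ S, p < 240 ∧ g • p ∈ S) {p : ℕ} (hp : p ∈ S) : g • p = p := by
  have m1 := (l p hp).2
  have m2 := (l _ m1).2
  have m3 := (l _ m2).2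
  have m4 := (l _ m3).2
  have e : g • g • g • g • g • p = p := by simpa [pow_succ, mul_smul] using congrArg (· • p) h5
  have i := fun a ha b hb => rel_inv g a (l a ha).1 b (l b hb).1
  have s1 := i _ hp _ m1
  have s2 := (i _ m1 _ m2).trans s1
  have s3 := (i _ m2 _ m3).trans s2
  have s4 := (i _ m3 _ m4).trans s3
  have t1 := i _ hp _ m2
  have t2 := (i _ m1 _ m3).trans t1
  have t3 := (i _ m2 _ m4).trans t2
  have t4 := (i _ m3 _ (l _ m4).2).trans t3
  rw [e] at s4 t3 t4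
  simp only [no5, imp, forceL_eq, force_eq, allL_iff, bor_eq, band_eq, Bool.or_eq_true, Bool.not_eq_true', nbeq,
    ← Bool.not_eq_true, Bool.and_eq_true] at h
  exact ((h p hp _ m1).resolve_right fun k => ((k _ m2).resolve_left (not_not.2 s1) _ m3).resolve_left
    (not_not.2 ⟨s2, t1, t3⟩) _ m4 ⟨s3, s4, t2, t4⟩).symm

theorem chain_spec (Q : List ℕ) : ∀ B, chain Q B = true → (∀ b ∈ B, b < 240 ∧ g • b = b) → ∀ q ∈ Q, g • q = q := by
  induction Q with
  | nil => exact fun _ _ _ _ h => absurd h List.not_mem_nil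
  | cons p Q ih =>
    intro B h l
    replace h : band (band (Nat.blt p 240) (no5 (cand B p))) (chain Q (p :: B)) = true := (forceL_eq _ _).symm.trans h
    simp only [band_eq, Bool.and_eq_true, nblt] at h
    have c : ∀ q, q ∈ cand B p ↔ q < 240 ∧ ∀ b ∈ B, rel b q = rel b p := by simp [cand, allL_iff]
    have : g • p = p := no5_spec h5 h.1.2 (fun q hq => ⟨((c q).1 hq).1, (c _).2 ⟨lo _ ((c q).1 hq).1, fun b hb => by
      rw [← ((c q).1 hq).2 b hb, ← rel_inv g b (l b hb).1 q ((c q).1 hq).1, (l b hb).2]⟩⟩) ((c p).2 ⟨h.1.1, fun _ _ => rfl⟩)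
    exact List.forall_mem_cons.2 ⟨this, ih _ h.2 (List.forall_mem_cons.2 ⟨⟨h.1.1, this⟩, l⟩)⟩

theorem neg5 {k : ℕ} (hk : k ∈ [2, 4, 5, 8]) (c : Commute g (d k)) : ∀ b ∈ fixL [k, 1], b < 240 ∧ g • b = b := by
  have m : ∀ q, q ∈ fixL [k, 1] ↔ q < 240 ∧ W d [k, 1] • q = q := fun q => by
    rw [fixL, filterL_eq, List.mem_filter, List.mem_range, nbeq]
    exact and_congr_right fun h => by rw [(actW_spec h3 _ (show PtN 240 q q from ⟨rfl, h⟩)).1]
  have c' : Commute g (W d [k, 1]) := by rw [W_cons, W_cons, W_nil, mul_one, dn]; exact c.mul_right (nc g)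
  exact fun b hb => ⟨((m b).1 hb).1, no5_spec h5 ((Bool.and_eq_true _ _).mp ((band_eq _ _).symm.trans (allL_iff.1 k8 k hk))).1
    (fun q hq => ⟨((m q).1 hq).1, (m _).2 ⟨lo _ ((m q).1 hq).1, by rw [← mul_smul, ← c'.eq, mul_smul, ((m q).1 hq).2]⟩⟩) hb⟩

theorem triv5 {k : ℕ} (hk : k ∈ [4, 5, 8]) (c : Commute g (d k)) : g = 1 := by
  have k' := List.mem_cons_of_mem 2 hk
  have := ((Bool.and_eq_true _ _).mp ((band_eq _ _).symm.trans (allL_iff.1 k8 k k'))).2
  rw [bor_eq, Bool.or_eq_true, nbeq] at this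
  have t := chain_spec h5 _ _ (this.resolve_left (by rintro rfl; simp at hk)) (neg5 h5 k' c)
  refine b240 g fun a _ _ ⟨rfl, ha⟩ => ?_
  have := allLt_iff.1 (allLt_iff.1 k7 _ (lo g ha)) a ha
  simp only [bor_eq, Bool.or_eq_true, nbeq, anyL_iff, Bool.not_eq_true', ← Bool.not_eq_true] at this
  refine this.resolve_right fun ⟨b, hb, ne⟩ => ne ?_
  rw [← rel_inv g b ((show ∀ b ∈ fr, b < 240 by decide) b hb) a ha, t b (List.mem_cons_of_mem _ hb)]

end Cfsg.Agent.StdZ.E8
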