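import Cfsg.Agent.Schur.Hopf
import Cfsg.Agent.Schur.Lift
import Cfsg.Agent.Invol.Dihedral

/-! Double covers of a perfect group with multiplier `2 × 2` and outer automorphism group of order 6 (helper23). -/

set_option autoImplicit false
set_option linter.unusedSectionVars false

namespace Cfsg.Agent.StdZ

open Subgroup Function Cfsg.Agent.Schur

variable {Q : Type} [Group Q] [Finite Q]

/-- an involution of `Q` lifting to an involution in the first cover only. -/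
def Ine {X : Type*} [Group X] (π π' : X →* Q) : Prop := ∃ a b, π a = π' b ∧ a * a = 1 ∧ b * b ≠ 1

abbrev V4 : Type := Multiplicative (ZMod 2 × ZMod 2)

theorem ker_el (hp : Group.IsPerfect Q) (e : ((proj (stdPres Q)).comp (commutator _).subtype).ker ≃* V4)
    {A : Type*} [Group A] {σ : A →* Q} (hσ : IsStemExtension σ) (h2 : Nat.card σ.ker = 2) :
    ∃ φ : commutator (Ext (stdPres Q)) →* A, Surjective φ ∧ σ.comp φ = (proj (stdPres Q)).comp (commutator _).subtype ∧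
      ∃ k ≠ 1, ∀ m, φ m.1 = 1 ↔ e m = 1 ∨ e m = k := by
  obtain ⟨φ, hφ⟩ := exists_lift_ext (isCentralExt_of_stem hσ) (stdPres Q)
  have s : Surjective (φ.comp (commutator _).subtype) := fun a => by
    obtain ⟨x, hx, rfl⟩ : a ∈ (commutator _).map φ := by
      rw [map_commutator_of_surjective (surjective_of_over_stem (proj_surjective (stdPres_surjective Q)) hσ hφ),
        Group.isPerfect_def.1 (isPerfect_of_stem hp hσ)]; trivial
    exact ⟨⟨x, hx⟩, rfl⟩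
  have o : σ.comp (φ.comp (commutator _).subtype) = (proj (stdPres Q)).comp (commutator _).subtype := by
    rw [← MonoidHom.comp_assoc, hφ]
  generalize φ.comp (commutator _).subtype = φ at s o
  generalize (proj (stdPres Q)).comp (commutator _).subtype = ρ at *
  let χ : V4 →* σ.ker := ((φ.comp ρ.ker.subtype).codRestrict _ fun m =>
    (DFunLike.congr_fun o m.1).trans m.2).comp e.symm.toMonoidHom
  have hχ : ∀ m, (χ (e m) : A) = φ m.1 := fun m => congrArg (fun m : ρ.ker => φ m.1) (e.symm_apply_apply m)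
  have : Finite σ.ker := Nat.finite_of_card_ne_zero (by omega)
  obtain ⟨k, hk, k1⟩ : ∃ k, χ k = 1 ∧ k ≠ 1 := by
    by_contra! c
    have := Nat.card_le_card_of_injective χ ((injective_iff_map_eq_one χ).2 c)
    rw [h2] at this; simp at this
  refine ⟨φ, s, o, k, k1, fun m => ?_⟩
  rw [← hχ, OneMemClass.coe_eq_one]
  refine ⟨fun h => by_contra fun c => ?_, by rintro (h | h) <;> simp [h, hk]⟩
  have t : ∀ x, χ x = 1 := fun x => by
    have : ∀ k m x : V4, k ≠ 1 → ¬(m = 1 ∨ m = k) → x = 1 ∨ x = k ∨ x = m ∨ x = k * m := by decide +kernel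
    rcases this k _ x k1 c with e | e | e | e <;> rw [e]
    exacts [map_one _, hk, h, by rw [map_mul, hk, h, mul_one]]
  obtain ⟨⟨z, hz⟩, z1⟩ := ((Nat.card_eq_two_iff' (1 : σ.ker)).1 h2).exists
  obtain ⟨x, rfl⟩ := s z
  exact z1 (Subtype.ext ((hχ ⟨x, (DFunLike.congr_fun o x).symm.trans hz⟩).symm.trans (congrArg Subtype.val (t _))))

set_option synthInstance.maxSize 2000 in
theorem three (hA : HasSchurMultiplier Q V4) (hp : Group.IsPerfect Q)
    {A : Type*} {X : Type} [Group A] [Group X] {σ : A →* Q} (hσ : IsStemExtension σ) (h2 : Nat.card σ.ker = 2)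
    {π : X →* Q} (hπ : IsStemExtension π) (h2' : Nat.card π.ker = 2) (τ : Q ≃* Q) (i1 : Ine π (τ.toMonoidHom.comp π))
    (i2 : Ine π (τ.toMonoidHom.comp (τ.toMonoidHom.comp π))) : Nonempty (A ≃* X) := by
  have := fg_freeGroup Q
  obtain ⟨e⟩ := (hasSchurMultiplier_iff_hopf (stdPres_surjective Q) _).1 hA
  replace e : ((proj (stdPres Q)).comp (commutator _).subtype).ker ≃* V4 := MulEquiv.trans
    { toFun := fun m => ⟨m.1.1, m.2, m.1.2⟩, invFun := fun m => ⟨⟨m.1, m.2.2⟩, m.2.1⟩, left_inv := fun _ => rfl,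
      right_inv := fun _ => rfl, map_mul' := fun _ _ => rfl } e.symm
  have kk : ∀ {π : X →* Q}, (τ.toMonoidHom.comp π).ker = π.ker := fun {π} => by ext; simp
  have s1 := isStem_equiv_comp hπ τ
  have s2 := isStem_equiv_comp s1 τ
  obtain ⟨φ, s, o, k, k1, h⟩ := ker_el hp e hσ h2
  obtain ⟨φ0, t0, o0, k0, n0, h0⟩ := ker_el hp e hπ h2'
  obtain ⟨φ1, t1, o1, k1', n1, h1⟩ := ker_el hp e s1 (by rw [kk, h2'])
  obtain ⟨φ2, t2, o2, k2, n2, h2⟩ := ker_el hp e s2 (by rw [kk, kk, h2'])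
  generalize (proj (stdPres Q)).comp (commutator _).subtype = ρ at *
  have ne : ∀ {π π' : X →* Q} {φ φ' : _ →* X} {k k' : V4}, π'.ker = _ → Ine π π' → Surjective φ → π.comp φ = ρ →
      π'.comp φ' = ρ → (∀ m : ρ.ker, φ m.1 = 1 ↔ e m = 1 ∨ e m = k) → (∀ m : ρ.ker, φ' m.1 = 1 ↔ e m = 1 ∨ e m = k') →
      k ≠ k' := fun {π₁ π' φ φ' k k'} (hk : π'.ker = π.ker) ⟨a, b, q, a2, b2⟩ s o o' h h' r => by
    obtain ⟨g, rfl⟩ := s a
    have p : ∀ g, π₁ (φ g) = ρ g := DFunLike.congr_fun o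
    have p' : ∀ g, π' (φ' g) = ρ g := DFunLike.congr_fun o'
    have := (h' ⟨g * g, by rw [MonoidHom.mem_ker, ← p, map_mul, a2, map_one]⟩).2 (r ▸ (h _).1 (by rw [map_mul, a2]))
    have m : b⁻¹ * φ' g ∈ π.ker := hk ▸ (show π' _ = 1 by rw [map_mul, map_inv, p', ← p, q, inv_mul_cancel])
    have c : (b⁻¹ * φ' g) ^ 2 = 1 := congrArg Subtype.val (h2' ▸ pow_card_eq_one' (x := (⟨_, m⟩ : π.ker)))
    rw [map_mul, ← mul_inv_cancel_left b (φ' g), (show Commute b _ from mem_center_iff.1 (hπ.2.1 m) b).symm.mul_mul_mul_comm,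
      ← pow_two (_ * φ' g), c, mul_one] at this
    exact b2 this
  have fin : ∀ {π : X →* Q} {φ' : _ →* X}, Surjective φ' → π.comp φ' = ρ → (∀ m : ρ.ker, φ' m.1 = 1 ↔ e m = 1 ∨ e m = k) →
      Nonempty (A ≃* X) := fun {π φ'} s' o' h' => ⟨(QuotientGroup.quotientKerEquivOfSurjective φ s).symm.trans
    ((QuotientGroup.quotientMulEquivOfEq (le_antisymm
      (fun g hg => (h' ⟨g, by rw [← o]; simp [show φ g = 1 from hg]⟩).2 ((h _).1 hg))
      fun g hg => (h ⟨g, by rw [← o']; simp [show φ' g = 1 from hg]⟩).2 ((h' _).1 hg))).trans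
      (QuotientGroup.quotientKerEquivOfSurjective φ' s'))⟩
  have : ∀ k a b c : V4, (k ≠ 1 ∧ a ≠ 1) ∧ (b ≠ 1 ∧ c ≠ 1) → a ≠ b ∧ a ≠ c ∧ b ≠ c → a = k ∨ b = k ∨ c = k := by
    decide +kernel
  rcases this k k0 k1' k2 ⟨⟨k1, n0⟩, n1, n2⟩ ⟨ne kk i1 t0 o0 o1 h0 h1, ne (kk.trans kk) i2 t0 o0 o2 h0 h2,
    ne (kk.trans kk) (let ⟨a, b, q, r⟩ := i1; ⟨a, b, congrArg τ q, r⟩) t1 o1 o2 h1 h2⟩ with rfl | rfl | rfl
  exacts [fin t0 o0 h0, fin t1 o1 h1, fin t2 o2 h2]

theorem aut2 {X : Type*} [Group X] {π : X →* Q} (hπ : IsStemExtension π) (hc : center X = π.ker) (hp : Group.IsPerfect Q)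
    (ho : Nat.card (Out Q) = 6) {α₀ : MulAut X} (h2 : α₀ * α₀ = 1) (h0 : ¬∃ x, ∀ y, π (α₀ y) = π (x * y * x⁻¹))
    {τ : MulAut Q} (i1 : Ine π (τ.toMonoidHom.comp π)) (h2' : Nat.card π.ker = 2) (α : MulAut X) :
    ∃ x, α = MulAut.conj x ∨ α = MulAut.conj x * α₀ := by
  let e := (QuotientGroup.quotientMulEquivOfEq hc).trans (QuotientGroup.quotientKerEquivOfSurjective π hπ.1)
  obtain ⟨Φ, hΦ⟩ : ∃ Φ : MulAut X →* MulAut Q, ∀ α y, Φ α (π y) = π (α y) := by
    have : ∀ α : MulAut X, ∃ β : MulAut Q, ∀ y, β (π y) = π (α y) := fun α =>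
      ⟨e.symm.trans ((QuotientGroup.congr _ _ α (characteristic_iff_map_eq.1 inferInstance α)).trans e), fun y => by
        rw [MulEquiv.trans_apply, show e.symm (π y) = y from e.symm_apply_eq.2 rfl]; rfl⟩
    choose Φ h using this
    exact ⟨MonoidHom.mk' Φ fun a b => MulEquiv.ext fun q => by
      obtain ⟨y, rfl⟩ := hπ.1 q; rw [h, MulAut.mul_apply, MulAut.mul_apply, h, h], h⟩
  let Ψ := (QuotientGroup.mk' (Inn Q)).comp Φ
  have k : ∀ α, Ψ α = 1 → ∃ x, ∀ y, π (α y) = π (x * y * x⁻¹) := fun α h => by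
    obtain ⟨q, hq⟩ := (QuotientGroup.eq_one_iff (N := Inn Q) _).1 h
    obtain ⟨x, rfl⟩ := hπ.1 q
    exact ⟨x, fun y => by rw [← hΦ, ← hq]; simp⟩
  have k' : ∀ α, Ψ α = 1 → ∃ x, α = MulAut.conj x := fun α h => (k α h).imp fun x hx => MulEquiv.ext fun y =>
    eq_on_commutator_of_over hπ.2.1 (φ := α.toMonoidHom) (ψ := (MulAut.conj x).toMonoidHom) (MonoidHom.ext hx)
      (Group.isPerfect_def.1 (isPerfect_of_stem hp hπ) ▸ mem_top y)
  have o2 : orderOf (Ψ α₀) = 2 := Invol.orderOf_two_iff.2 ⟨by rw [← map_mul, h2, map_one], fun h => h0 (k _ h)⟩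
  have : Finite (Out Q) := Nat.finite_of_card_ne_zero (by omega)
  have nt : Ψ.range ≠ ⊤ := fun t => by
    obtain ⟨β, hβ⟩ := t ▸ mem_top (τ : Out Q)
    obtain ⟨q, hq⟩ := QuotientGroup.eq.1 hβ
    obtain ⟨x, rfl⟩ := hπ.1 q
    obtain ⟨a, b, q, a2, b2⟩ := i1
    have m : a⁻¹ * β (x * b * x⁻¹) ∈ π.ker := by
      rw [MonoidHom.mem_ker, map_mul, map_inv, q, ← hΦ, inv_mul_eq_one]
      show τ _ = _
      rw [inv_mul_eq_iff_eq_mul.1 hq.symm]; simp
    have c : (a⁻¹ * β (x * b * x⁻¹)) ^ 2 = 1 := congrArg Subtype.val (h2' ▸ pow_card_eq_one' (x := (⟨_, m⟩ : π.ker)))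
    have := (show Commute a _ from mem_center_iff.1 (hπ.2.1 m) a).symm.mul_mul_mul_comm a (a⁻¹ * β (x * b * x⁻¹))
    rw [mul_inv_cancel_left, ← pow_two (_ * β _), c, a2, mul_one, ← map_mul, conj_mul, map_eq_one_iff _ β.injective] at this
    exact b2 (by simpa using this)
  have l : zpowers (Ψ α₀) ≤ Ψ.range := zpowers_le.2 ⟨_, rfl⟩
  have d1 := card_dvd_of_le l
  have d2 := ho ▸ Ψ.range.card_subgroup_dvd_card
  have d3 : Nat.card Ψ.range ≠ 6 := fun h => nt (eq_top_of_card_eq _ (h.trans ho.symm))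
  have d4 := Nat.le_of_dvd (by decide) d2
  rw [Nat.card_zpowers, o2] at d1
  have := eq_of_le_of_card_ge l (by rw [Nat.card_zpowers, o2]; interval_cases Nat.card Ψ.range <;> omega)
  rcases (Invol.mem_zpowers_invol (Invol.mul_self_of o2)).1 (this.ge ⟨α, rfl⟩) with h | h
  · exact (k' α h).imp fun _ => .inl
  · exact (k' (α * α₀⁻¹) (by rw [map_mul, h, map_inv, mul_inv_cancel])).imp fun _ h => .inr (mul_inv_eq_iff_eq_mul.1 h)

end Cfsg.Agent.StdZ
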