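import Cfsg.Agent.StdZ.E8T
import Cfsg.Agent.StdZ.E8W
import Cfsg.Agent.Known.O82Eq
import Cfsg.Agent.S0296

/-! The model `Wg` of `W(E₈)`, its subgroup `X` of index 2, a double cover `π` of the model of `Ω₈⁺(2)` (helper23). -/

set_option autoImplicit false
set_option maxRecDepth 100000

namespace Cfsg.Agent.StdZ.E8

open Subgroup Cfsg.Agent.Comp Cfsg.Agent.Known Cfsg.Agent.Known.O82T
open Cfsg.Agent.Spor (ev ev_cons map_ev genL_le)

theorem a1_hi {i a : ℕ} (h : ¬(i < 11 ∧ a < 240)) : a1 i a = a := by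
  rw [a1, bif'_eq, if_neg (by rwa [band_eq, Bool.and_eq_true, nblt, nblt])]
theorem a1_ok (i a : ℕ) : (a < 240 → a1 i a < 240) ∧ a1 i (a1 i (a1 i (a1 i a))) = a := by
  by_cases h : i < 11 ∧ a < 240
  · have := allLt_iff.1 (allLt_iff.1 k1 i h.1) a h.2
    rw [band_eq, Bool.and_eq_true, nblt, nbeq] at this
    exact ⟨fun _ => this.1, this.2⟩
  · simp [a1_hi h]

def w1 (i : ℕ) : Equiv.Perm ℕ := ⟨a1 i, fun a => a1 i (a1 i (a1 i a)), fun a => (a1_ok i a).2, fun a => (a1_ok i a).2⟩
def Wg : Subgroup (Equiv.Perm ℕ) := closure (Set.range w1)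
def w (i : ℕ) : Wg := ⟨w1 i, subset_closure ⟨i, rfl⟩⟩

theorem ind {K : Subgroup Wg} (h : ∀ i < 11, w i ∈ K) (g : Wg) : g ∈ K := by
  have : closure (Subtype.val ⁻¹' Set.range w1 : Set Wg) ≤ K := (closure_le _).2 fun g ⟨i, e⟩ => by
    obtain rfl : w i = g := Subtype.ext e
    by_cases c : i < 11
    · exact h i c
    · exact (show w i = 1 from Subtype.ext (Equiv.ext fun a => a1_hi (by omega))) ▸ one_mem K
  exact this (closure_closure_coe_preimage.ge (mem_top g))

theorem h1 : ActBy w (PtN 240) a1 := by rintro i _ a _ rfl ⟨rfl, h⟩; exact ⟨rfl, (a1_ok i a).1 h⟩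
theorem hi (g : Wg) {a : ℕ} (h : 240 ≤ a) : g • a = a :=
  ind (K := MulAction.stabilizer Wg a) (fun _ _ => a1_hi (by omega)) g
theorem lo (g : Wg) {a : ℕ} (h : a < 240) : g • a < 240 := by
  by_contra! c
  rw [show g • a = a from MulAction.injective g (hi g c)] at c; omega
theorem b240 : IsBase Wg (PtN 240) (List.range 240) := fun g h => Subtype.ext (Equiv.ext fun a =>
  (lt_or_ge a 240).elim (fun c => h a (List.mem_range.2 c) a ⟨rfl, c⟩) (hi g))
scoped instance finW : Finite Wg := Finite.of_injective (fun (g : Wg) (a : Fin 240) => (⟨g • a.1, lo g a.2⟩ : Fin 240))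
  fun g h e => inv_mul_eq_one.1 (b240 _ fun b _ _ ⟨e', c⟩ => by
    rw [mul_smul, inv_smul_eq_iff]; exact (congrArg Fin.val (congrFun e ⟨_, c⟩)).symm)

noncomputable def x (i : ℕ) : Wg := W w (nthL [] xw i)
noncomputable def d (i : ℕ) : Wg := W x (nthL [] dw i)
theorem h2 : ActBy x (PtN 240) a2 := by
  rintro i _ a _ rfl ⟨rfl, h⟩
  have := actW_spec h1 (nthL [] xw i) (a := a) ⟨rfl, h⟩
  by_cases c : i < 17
  · rwa [← nbeq.1 (allLt_iff.1 (allLt_iff.1 k0 i c) a h)] at this
  · rw [x, a2, bif'_eq, if_neg (by rwa [nblt]), nthL_eq, List.getD_eq_default _ _ (not_lt.1 c), W_nil, one_smul]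
    exact ⟨rfl, h⟩
theorem h3 : ActBy d (PtN 240) a3 := h2.words dw
theorem E1 {u v : List ℕ} (h : eq1 u v = true) : W w u = W w v := eq_of_eqB (isCanon_PtN _).func h1 b240 h
theorem E2 {u v : List ℕ} (h : eq2 u v = true) : W x u = W x v := eq_of_eqB (isCanon_PtN _).func h2 b240 h
theorem E3 {u v : List ℕ} (h : eq3 u v = true) : W d u = W d v := eq_of_eqB (isCanon_PtN _).func h3 b240 h

def X : Subgroup Wg := closure (w '' {i | i < 10})
abbrev r : Wg := w 10
theorem WX {u : List ℕ} (h : allL u (fun l => Nat.blt l 10) = true) : W w u ∈ X :=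
  W_mem w fun l hl => subset_closure ⟨l, nblt.1 (allL_iff.1 h l hl), rfl⟩
theorem rr : r * r = 1 := by simpa using E1 (u := [10, 10]) (v := []) (by decide +kernel)
theorem rX {a : Wg} (h : a ∈ X) : r * a * r⁻¹ ∈ X := (closure_le (X.comap (MulAut.conj r).toMonoidHom)).2 (by
  rintro _ ⟨i, hi, rfl⟩
  have := allLt_iff.1 k10 i hi
  rw [band_eq, Bool.and_eq_true] at this
  have e := E1 this.2
  rw [appendL_eq, W_append, W_cons, W_cons, W_cons, W_nil, mul_one, mul_one, ← mul_inv_eq_iff_eq_mul] at e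
  exact (e ▸ WX this.1 : r * w i * r⁻¹ ∈ X)) h
theorem ri : r⁻¹ = r := inv_eq_of_mul_eq_one_left rr
theorem two (g : Wg) : g * r ∈ X ∨ g ∈ X := ind (K :=
  { carrier := {g | g * r ∈ X ∨ g ∈ X}
    one_mem' := .inr (one_mem _)
    mul_mem' := by
      rintro a b (p | p) (q | q)
      · exact .inr (by convert mul_mem p (rX q) using 1; rw [mul_assoc a, ← mul_assoc r, ← mul_assoc r, rr]; group)
      · exact .inl (by convert mul_mem p (rX q) using 1; rw [mul_assoc a r, ← mul_assoc r, ← mul_assoc r, rr, ri]; group)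
      · exact .inl (by rw [mul_assoc]; exact mul_mem p q)
      · exact .inr (mul_mem p q)
    inv_mem' := by
      rintro a (p | p)
      · exact .inl (by convert rX (inv_mem p) using 1; rw [mul_inv_rev, mul_inv_cancel_left, ri])
      · exact .inr (inv_mem p) }) (fun i hi => (Nat.lt_succ_iff_lt_or_eq.1 hi).symm.imp (by rintro rfl; exact rr ▸ one_mem X)
    fun c => subset_closure ⟨i, c, rfl⟩) g
scoped instance nX : X.Normal := ⟨fun a h g => (two g).elim (fun p => by
  convert mul_mem (mul_mem p (rX h)) (inv_mem p) using 1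
  calc _ = g * (r * r) * a * (r * r)⁻¹ * g⁻¹ := by rw [rr]; group
    _ = _ := by group) fun p => mul_mem (mul_mem p h) (inv_mem p)⟩

noncomputable def n : X := ⟨W w nw, WX (by decide +kernel)⟩
theorem nc (g : Wg) : Commute g n := mem_centralizer_singleton_iff.1 (ind (K := centralizer {n.1}) (fun i hi =>
  mem_centralizer_singleton_iff.2 (by simpa [appendL_eq, n] using E1 (allLt_iff.1 k11 i hi))) g)
theorem nn : n * n = 1 := Subtype.ext (by simpa [n] using E1 (u := nw ++ nw) (v := []) (by decide +kernel))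
theorem nn' : (n : Wg) * n = 1 := by rw [← coe_mul, nn, coe_one]
theorem act_ne {u v : List ℕ} {a : ℕ} (h : band (Nat.blt a 240) (not (Nat.beq (actW a1 u a) (actW a1 v a))) = true) :
    W w u ≠ W w v := fun e => by
  rw [band_eq, Bool.and_eq_true, nblt, Bool.not_eq_true', ← Bool.not_eq_true, nbeq] at h
  exact h.2 ((actW_spec h1 u ⟨rfl, h.1⟩).1.trans (e ▸ (actW_spec h1 v ⟨rfl, h.1⟩).1.symm))
theorem n1 : n ≠ 1 := fun e => act_ne (u := nw) (v := []) (a := 0) (by decide +kernel) (congrArg Subtype.val e)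
theorem n2 : orderOf n = 2 := Invol.orderOf_two_iff.2 ⟨nn, n1⟩

def lt (i : ℕ) : ℕ := bif' (Nat.blt i 10) i 0
theorem lt_lt (i : ℕ) : lt i < 10 := by rw [lt, bif'_eq]; split_ifs with h; exacts [nblt.1 h, by decide]
theorem lt_eq {i : ℕ} (h : i < 10) : lt i = i := by rw [lt, bif'_eq, if_pos (nblt.2 h)]
def y' (i : ℕ) : X := ⟨w (lt i), subset_closure ⟨_, lt_lt i, rfl⟩⟩
theorem y_eq (i : ℕ) : y i = O82P.g (lt i) := by
  have : nthL [0] wds i = [lt i] := by
    by_cases h : i < 10
    · revert i; decide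
    · rw [nthL_eq, List.getD_eq_default _ _ (not_lt.1 h), lt, bif'_eq, if_neg (by rwa [nblt])]
  rw [y, this, ev_cons, ev, one_mul, inv_eq_iff_mul_eq_one]
  exact (mul_one _).symm.trans (by simpa using O82P.hg [lt i, lt i] (by have := lt_lt i; revert this; generalize lt i = a; revert a; decide))
theorem cy {u : List ℕ} (h : allL u (fun l => Nat.blt l 10) = true) : ((W y' u : X) : Wg) = W w u :=
  (map_W y' X.subtype u).trans (congrArg List.prod (List.map_congr_left fun l hl =>
    congrArg w (lt_eq (nblt.1 (allL_iff.1 h l hl)))))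

theorem ev_W {M : Type*} [Group M] (g : ℕ → M) (u : List ℕ) : ev g u = W g u.reverse := by
  induction u with
  | nil => rfl
  | cons a u ih => simp [ih]

theorem simple : IsSimpleGroup O82P.G := by
  obtain ⟨e⟩ := equiv (ZMod.card 2)
  have := S0296.result (F := ZMod 2) 4 le_rfl
  exact e.symm.isSimpleGroup

theorem inj {M : Type*} [Group M] {ψ : O82P.G →* M} (h : ψ (O82P.g 0) ≠ 1) : Function.Injective ψ := by
  have := simple
  exact ψ.ker_eq_bot_iff.1 ((ψ.normal_ker.eq_bot_or_eq_top).resolve_right fun e => h (e.ge (mem_top _)))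

theorem exπ : ∃ π : X →* O82P.G, Function.Surjective π ∧ π.ker = zpowers n ∧ ∀ i, π (y' i) = y i := by
  have : (zpowers (n : Wg)).Normal := Schur.normal_of_le_center (zpowers_le.2 (mem_center_iff.2 nc))
  let q := QuotientGroup.mk' (zpowers (n : Wg))
  have z : ∀ a, q a = 1 ↔ a = 1 ∨ a = n := fun a => (QuotientGroup.eq_one_iff a).trans
    (Invol.mem_zpowers_invol nn')
  obtain ⟨ψ, hψ⟩ := O82P.lifts (Wg ⧸ zpowers (n : Wg)) (fun i => q (w i)) fun s hs => by
    have := allL_iff.1 k9 s hs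
    rw [bor_eq, Bool.or_eq_true] at this
    rw [← map_ev q, z, ev_W]
    exact this.imp E1 E1
  have i : Function.Injective ψ := inj (by
    rw [hψ 0 (by decide), Ne, z, not_or]
    exact ⟨by simpa using act_ne (u := [0]) (v := []) (a := 48) (by decide +kernel),
      by simpa [n] using act_ne (u := [0]) (v := nw) (a := 48) (by decide +kernel)⟩)
  have m : ∀ a : X, q a ∈ ψ.range := fun a => (closure_le (ψ.range.comap q)).2 (by
    rintro _ ⟨i, hi, rfl⟩; exact ⟨_, hψ i hi⟩) a.2
  let π := (MonoidHom.ofInjective i).symm.toMonoidHom.comp ((q.comp X.subtype).codRestrict _ m)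
  have h : ∀ a, ψ (π a) = q a := fun a => MonoidHom.apply_ofInjective_symm i _
  have hy : ∀ i, π (y' i) = y i := fun l => i (by rw [h, y_eq, hψ _ (lt_lt l)]; rfl)
  refine ⟨π, ?_, Subgroup.ext fun a => ?_, hy⟩
  · rw [← MonoidHom.range_eq_top, eq_top_iff, ← O82P.rep.top]
    exact genL_le fun l hl => ⟨y' l, by rw [hy, y_eq, lt_eq (List.mem_range.1 hl)]⟩
  · rw [MonoidHom.mem_ker, ← i.eq_iff, h, map_one, z, Invol.mem_zpowers_invol nn]
    exact or_congr OneMemClass.coe_eq_one Subtype.coe_inj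

noncomputable def π : X →* O82P.G := exπ.choose
theorem π_surj : Function.Surjective π := exπ.choose_spec.1
theorem ker_eq : π.ker = zpowers n := exπ.choose_spec.2.1
theorem πW (u : List ℕ) : π (W y' u) = W y u := (map_W y' π u).trans (congrArg (W · u) (funext exπ.choose_spec.2.2))
theorem card_ker : Nat.card π.ker = 2 := by rw [ker_eq, Nat.card_zpowers, n2]
theorem πn : π n = 1 := ker_eq.ge (mem_zpowers n)

noncomputable def ty (i : ℕ) : O82P.G := W y (nthL [] tw (lt i))
noncomputable def at1 (i : ℕ) : ℕ → ℕ := actW act (nthL [] tw (lt i))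
noncomputable def at2 (i : ℕ) : ℕ → ℕ := actW at1 (nthL [] tw (lt i))
theorem ht : ActBy ty (PtN 120) at1 := by rintro i _ a p rfl h; exact actW_spec hy _ h
theorem exτ : ∃ τ : MulAut O82P.G, ∀ u, τ (W y u) = W ty u := by
  obtain ⟨τ, h⟩ := O82P.lifts _ ty fun s hs => (ev_W _ _).trans (eq_of_eqB (isCanon_PtN _).func ht base (v := [])
    (allL_iff.1 (show allL O82P.rels (fun s => eqB at1 [24, 9, 8, 4, 2, 1, 0] s.reverse []) = true by decide +kernel) s hs))
  have i : Function.Injective τ := inj (by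
    rw [h 0 (by decide)]
    intro e
    exact absurd (e ▸ ht rfl (show PtN 120 10 10 from ⟨rfl, by decide⟩)).1 (by rw [one_smul]; decide +kernel))
  exact ⟨MulEquiv.ofBijective τ (Finite.injective_iff_bijective.1 i), fun u => (map_W y τ u).trans (congrArg (W · u)
    (funext fun l => by rw [y_eq, h _ (lt_lt l), ty, ty, lt_eq (lt_lt l)]))⟩
noncomputable def τ : MulAut O82P.G := exτ.choose
theorem τW (u : List ℕ) : τ (W y u) = W ty u := exτ.choose_spec u

noncomputable abbrev v : X := W y' vw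
theorem sqn {u : List ℕ} (h : band (allL u fun l => Nat.blt l 10) (eq1 (u ++ u) nw) = true) : W y' u * W y' u = n := by
  rw [band_eq, Bool.and_eq_true] at h
  exact Subtype.ext (by rw [coe_mul, cy h.1, ← W_append]; exact E1 h.2)
theorem sq1 {u : List ℕ} (h : band (allL u fun l => Nat.blt l 10) (eq1 (u ++ u) []) = true) : W y' u * W y' u = 1 := by
  rw [band_eq, Bool.and_eq_true] at h
  exact Subtype.ext (by rw [coe_mul, cy h.1, ← W_append]; exact E1 h.2)
theorem eqb {g h : O82P.G} {a b : ℕ → ℕ} (p : ∀ q, PtN 120 q q → PtN 120 (a q) (g • q))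
    (p' : ∀ q, PtN 120 q q → PtN 120 (b q) (h • q)) (e : allL [24, 9, 8, 4, 2, 1, 0] (fun q => Nat.beq (a q) (b q)) = true) :
    g = h := inv_mul_eq_one.1 (base _ fun q hq _ ⟨rfl, c⟩ => by
  rw [mul_smul, inv_smul_eq_iff, ← (p q ⟨rfl, c⟩).1, ← (p' q ⟨rfl, c⟩).1]; exact (nbeq.1 (allL_iff.1 e q hq)).symm)
theorem ine1 : Ine π (τ.toMonoidHom.comp π) := ⟨W y' aw, v, by
  show _ = τ (π _)
  rw [πW, πW, τW]
  exact eqb (fun _ => actW_spec hy aw) (fun _ => actW_spec ht vw) (by decide +kernel), sq1 (by decide +kernel),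
  by rw [sqn (by decide +kernel)]; exact n1⟩
theorem ine2 : Ine π (τ.toMonoidHom.comp (τ.toMonoidHom.comp π)) := ⟨W y' bw, W y' uw, by
  show _ = τ (τ (π _))
  rw [πW, πW, τW, ← MulEquiv.coe_toMonoidHom, map_W]
  exact eqb (fun _ => actW_spec hy bw) (fun _ => actW_spec (act := at2) (by
    rintro i _ a p rfl h
    exact Eq.mpr (congrArg (fun g => PtN 120 _ (g • p)) (τW _)) (actW_spec ht _ h)) uw) (by decide +kernel), sq1 (by decide +kernel),
  by rw [sqn (by decide +kernel)]; exact n1⟩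

theorem rv : MulAut.conjNormal r v = W y' uw := Subtype.ext (by
  have := E1 (u := 10 :: vw) (v := uw ++ [10]) (by decide +kernel)
  rw [W_append, W_cons, W_cons, W_nil, mul_one] at this
  rwa [MulAut.conjNormal_apply, mul_inv_eq_iff_eq_mul, cy (u := vw) (by decide +kernel), cy (u := uw) (by decide +kernel)])
theorem kap (a : X) : π (MulAut.conjNormal r v) ≠ π (a * v * a⁻¹) := fun e => by
  have p : τ (π v) • 1 = 1 := by rw [πW, τW, ← (actW_spec ht vw (show PtN 120 1 1 from ⟨rfl, by decide⟩)).1]; decide +kernel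
  have := actW_spec ht uw (show PtN 120 _ (τ (π a) • 1) from ⟨rfl, O82P.rep.lt _ (by decide)⟩)
  rw [← τW, ← πW, ← rv, e, map_mul, map_mul, map_mul, map_mul, map_inv, map_inv, mul_smul, inv_smul_smul,
    mul_smul, p] at this
  have k : allLt 120 (fun p => not (Nat.beq (actW at1 uw p) p)) = true := by decide +kernel
  exact absurd (allLt_iff.1 k _ this.2) (by rw [nbeq.2 this.1]; decide)

end Cfsg.Agent.StdZ.E8
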