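import Cfsg.Agent.Known.RuMul
import Cfsg.Agent.Invol.Dihedral

/-! A concrete double cover `X` of the model of the Rudvalis group, its action on `16240` points (helper23). -/

set_option autoImplicit false
set_option maxRecDepth 100000
set_option exponentiation.threshold 100000

namespace Cfsg.Agent.StdZ.Ru

open Subgroup Cfsg.Agent.Comp Cfsg.Agent.Known Cfsg.Agent.Known.RuT Cfsg.Agent.Spor

abbrev PM : Type := Equiv.Perm (ℕ × ZMod 2)
noncomputable abbrev m : ℕ → PM := mM 2 nets2 cs2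
noncomputable abbrev zz : PM := zM 2 8120
noncomputable def gg (i : ℕ) : MdRu.G × PM := (MdRu.g i, m i)
noncomputable def X : Subgroup (MdRu.G × PM) := genL gg (List.range 7)
noncomputable def π : X →* MdRu.G := (MonoidHom.fst _ _).comp X.subtype
noncomputable def ρ : X →* PM := (MonoidHom.snd _ _).comp X.subtype

theorem π_surj : Function.Surjective π := by
  rw [← MonoidHom.range_eq_top, eq_top_iff, ← MdRu.rep.top]
  exact genL_le fun i hi => ⟨⟨gg i, mem_genL _ hi⟩, rfl⟩

theorem ker0 {a : X} (h : π a = 1) : ρ a = 1 ∨ ρ a = zz := by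
  let Y := centralizer ({zz} : Set PM)
  have hc : (zpowers zz).subgroupOf Y ≤ center Y := fun ⟨_, _⟩ ⟨k, e⟩ => mem_center_iff.2 fun y => Subtype.ext (by
    subst e; exact ((show Commute zz y.1 from y.2 _ rfl).zpow_left k).symm)
  have := Schur.normal_of_le_center hc
  let m' : ℕ → Y := fun i => if h : i < 7 then ⟨m i, by rintro _ rfl; exact cov2.comm i h⟩ else 1
  have hm0 : ∀ i < 7, (m' i : PM) = m i := fun i hi => by simp only [m', dif_pos hi]
  let q := QuotientGroup.mk' ((zpowers zz).subgroupOf Y)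
  obtain ⟨ψ, hψ⟩ := lifts _ (fun i => q (m' i)) fun r hr => by
    rw [← map_ev q, QuotientGroup.mk'_apply, QuotientGroup.eq_one_iff, mem_subgroupOf,
      show ((ev m' r : Y) : PM) = ev m r from (map_ev Y.subtype m' r).trans (ev_congr fun i hi => hm0 i
        (lt_of_chkLet (show chkLet (List.range 7) JRum3.rels = true by decide +kernel) r hr i hi))]
    exact cov2.mem r hr
  have : X ≤ ((ψ.comp (MonoidHom.fst _ Y)).eqLocus (q.comp (MonoidHom.snd _ Y))).map ((MonoidHom.id _).prodMap Y.subtype) :=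
    genL_le fun i hi => ⟨(MdRu.g i, m' i), hψ i (List.mem_range.1 hi), Prod.ext rfl (hm0 i (List.mem_range.1 hi))⟩
  obtain ⟨⟨g, y⟩, h1, h2⟩ := this a.2
  obtain rfl : g = 1 := (congrArg Prod.fst h2).trans h
  rw [show ρ a = y from (congrArg Prod.snd h2).symm, ← Invol.mem_zpowers_invol (Invol.mul_self_of cov2.ord)]
  exact (QuotientGroup.eq_one_iff y).1 ((show ψ 1 = q y from h1).symm.trans (map_one ψ))

theorem ext' {a b : X} (h : π a = π b) (h' : ρ a = ρ b) : a = b := Subtype.ext (Prod.ext h h')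

theorem ker_cen : π.ker ≤ center X := fun a h => mem_center_iff.2 fun b => ext' (by
  rw [map_mul, map_mul, show π a = 1 from h, mul_one, one_mul]) (by
  rw [map_mul, map_mul]
  rcases ker0 h with e | e <;> rw [e]
  · simp
  · have : X ≤ (centralizer {zz}).comap (MonoidHom.snd _ _) := genL_le fun i hi => by
      rintro _ rfl; exact cov2.comm i (List.mem_range.1 hi)
    exact (this b.2 _ rfl).symm)

def lt (i : ℕ) : ℕ := nthL 0 [0, 1, 2, 3, 4, 5, 6] i

theorem lt_lt (i : ℕ) : lt i < 7 := by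
  rcases nthL_mem_or 0 [0, 1, 2, 3, 4, 5, 6] i with h | h
  · revert h; rw [lt]; generalize nthL _ _ i = a; simp; omega
  · rw [lt, h]; decide

noncomputable def y (i : ℕ) : X := (⟨gg (lt i), mem_genL _ (List.mem_range.2 (lt_lt i))⟩ : X)⁻¹

theorem π_y (i : ℕ) : π (y i) = RuT.y i := by
  have : nthL [0] wds i = [lt i] := forall₂_nthL (R := fun a b => a = [b]) rfl (by repeat constructor) i
  rw [RuT.y, this, ev_cons, ev, one_mul]; rfl

noncomputable scoped instance ia : MulAction X (ℕ × ZMod 2) := MulAction.compHom _ ρ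

def pt (a : ℕ) : ℕ × ZMod 2 := (a / 2, a)

theorem pt_inj {a b : ℕ} (h : pt a = pt b) : a = b := by
  have h1 : a / 2 = b / 2 := congrArg Prod.fst h
  have h2 := (ZMod.natCast_eq_natCast_iff' a b 2).1 (congrArg Prod.snd h)
  omega

def P16 (a : ℕ) (p : ℕ × ZMod 2) : Prop := a < 16240 ∧ p = pt a

noncomputable def act16 (i a : ℕ) : ℕ := force (lt i) fun l =>
  force (get2 13 (tabW nets2 8120 13 13 [l]) (Nat.shiftRight a 1)) fun w =>
    Nat.add (Nat.mul 2 w) (Nat.land (Nat.add a (bit (getL cs2 (0, 0) l).1 w)) 1)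

theorem hy16 : ActBy y P16 act16 := by
  rintro i _ a _ rfl ⟨ha, rfl⟩
  obtain ⟨h1, h2⟩ := tabOf_of_chk (L := 13) (w := 13) (c := tabW nets2 8120 13 13 [lt i]) ok2 [lt i]
    (by rw [band_eq, Bool.and_eq_true]; exact ⟨by decide, nbeq.2 rfl⟩) (a / 2) (by omega)
  rw [ev_cons, ev, one_mul] at h1 h2
  have e : act16 i a = 2 * (PP nets2 (lt i))⁻¹ (a / 2) +
      (a + ((getL cs2 (0, 0) (lt i)).1.testBit ((PP nets2 (lt i))⁻¹ (a / 2))).toNat) % 2 := by
    rw [act16, force_eq, force_eq, show Nat.shiftRight a 1 = a / 2 from Nat.shiftRight_one a, h1, bit_eq]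
    exact congrArg _ (Nat.and_one_is_mod _)
  rw [e]
  refine ⟨by omega, Prod.ext (show (PP nets2 (lt i))⁻¹ (a / 2) = _ / 2 by omega) ?_⟩
  show (a : ZMod 2) - pv 2 _ ((PP nets2 (lt i))⁻¹ (a / 2)) = ((_ + _ : ℕ) : ZMod 2)
  rw [pv, Nat.cast_add, ZMod.natCast_mod, CharTwo.sub_eq_add]
  push_cast
  rw [show (2 : ZMod 2) = 0 from rfl]; ring

end Cfsg.Agent.StdZ.Ru
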